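import Cfsg.Agent.Lib.Helper49.WittOmega
import Cfsg.Agent.Lib.Helper49.Transfer
import Cfsg.Prelude.Def_LieTypeDatum

/-!
# Rung GLUE of the AUT-ORTH ladder

From the abstract description of the automorphisms of `Ω(Q)/Z` to `Cfsg.gammaPOmega F Q = ⊤`.
-/

set_option autoImplicit false

namespace Cfsg.Agent.Lib.Helper29.AutO

open QuadraticMap Module Cfsg.Agent.Lib.Helper49

theorem map_center_mulEquiv {G H : Type*} [Group G] [Group H] (e : G ≃* H) :
    (Subgroup.center G).map (e : G →* H) = Subgroup.center H := by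
  ext h
  rw [Subgroup.mem_map]
  constructor
  · rintro ⟨g, hg, rfl⟩
    rw [Subgroup.mem_center_iff] at hg ⊢
    intro k
    obtain ⟨k, rfl⟩ := e.surjective k
    change e k * e g = e g * e k
    rw [← map_mul, ← map_mul, hg k]
  · intro hh
    rw [Subgroup.mem_center_iff] at hh
    refine ⟨e.symm h, ?_, by simp⟩
    rw [Subgroup.mem_center_iff]
    intro k
    apply e.injective
    rw [map_mul, map_mul, MulEquiv.apply_symm_apply, hh]

section

variable {ι : Type} [Fintype ι] [DecidableEq ι] {F : Type*} [Field F]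
variable (Q : QuadraticForm F (ι → F))

/-- `Ω` of matrices is isomorphic to the abstract `Ω` -/
noncomputable def omegaEquiv : ↥(Cfsg.Omega F ⇑Q) ≃* ↥(commutator ↥(OG Q)) where
  toFun s := ⟨isoEquiv Q s.1, (mem_Omega_iff Q s.1).1 s.2⟩
  invFun t := ⟨(isoEquiv Q).symm t.1, (mem_Omega_iff Q _).2 (by
    rw [MulEquiv.apply_symm_apply]; exact t.2)⟩
  left_inv s := by
    apply Subtype.ext
    simp
  right_inv t := by
    apply Subtype.ext
    simp
  map_mul' a b := by
    apply Subtype.ext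
    simp

theorem omegaEquiv_apply (s : ↥(Cfsg.Omega F ⇑Q)) (v : ι → F) :
    (omegaEquiv Q s).1.1 v =
      (((s : ↥(Cfsg.isometryGroup F ⇑Q)) : Matrix.GeneralLinearGroup ι F) : Matrix ι ι F).mulVec v :=
  rfl

/-- the projective version -/
noncomputable def pOmegaEquiv : Cfsg.POmega F ⇑Q ≃*
    (↥(commutator (OG Q)) ⧸ Subgroup.center ↥(commutator (OG Q))) :=
  QuotientGroup.congr _ _ (omegaEquiv Q) (map_center_mulEquiv _)

theorem pOmegaEquiv_mk (s : ↥(Cfsg.Omega F ⇑Q)) :
    pOmegaEquiv Q (QuotientGroup.mk s) = QuotientGroup.mk (omegaEquiv Q s) :=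
  QuotientGroup.congr_mk _ _ _ _ _

end

/-- the linear map attached to a semilinear one -/
noncomputable def linOfSemi {ι : Type} {F : Type*} [Field F] (σ : F ≃+* F)
    (γ : (ι → F) ≃+ (ι → F)) (hγ : ∀ (a : F) (x : ι → F), γ (a • x) = σ a • γ x) :
    (ι → F) ≃ₗ[F] (ι → F) where
  toFun x := γ (fun i => σ.symm (x i))
  invFun y := fun i => σ (γ.symm y i)
  map_add' x y := by
    rw [← map_add]
    congr 1
    funext i
    simp
  map_smul' a x := by
    have : (fun i => σ.symm ((a • x) i)) = σ.symm a • (fun i => σ.symm (x i)) := by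
      funext i
      simp
    rw [this, hγ]
    simp
  left_inv x := by
    funext i
    simp
  right_inv y := by
    simp

theorem linOfSemi_apply {ι : Type} {F : Type*} [Field F] (σ : F ≃+* F)
    (γ : (ι → F) ≃+ (ι → F)) (hγ : ∀ (a : F) (x : ι → F), γ (a • x) = σ a • γ x) (v : ι → F) :
    linOfSemi σ γ hγ (fun i => σ (v i)) = γ v := by
  change γ (fun i => σ.symm (σ (v i))) = γ v
  simp

/-- RUNG GLUE -/
theorem gamma_eq_top_of_abstract {ι : Type} [Fintype ι] [DecidableEq ι] {F : Type*} [Field F]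
    [Fintype F] (QF : QuadraticForm F (ι → F))
    (H : ∀ α : (↥(commutator (OG QF)) ⧸ Subgroup.center ↥(commutator (OG QF))) ≃*
          (↥(commutator (OG QF)) ⧸ Subgroup.center ↥(commutator (OG QF))),
        ∃ (σ : F ≃+* F) (γ : (ι → F) ≃+ (ι → F)) (c : F), c ≠ 0 ∧
          (∀ (a : F) (x : ι → F), γ (a • x) = σ a • γ x) ∧ (∀ x, QF (γ x) = c * σ (QF x)) ∧
          ∀ s s' : ↥(commutator (OG QF)), (∀ x, s'.1.1 (γ x) = γ (s.1.1 x)) →
            α (QuotientGroup.mk s) = QuotientGroup.mk s') :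
    Cfsg.gammaPOmega F (⇑QF) = ⊤ := by
  rw [eq_top_iff]
  intro β _
  apply Subgroup.subset_closure
  obtain ⟨σ, γ, c, hc, hγ, hQ, hα⟩ := H ((pOmegaEquiv QF).symm.trans (β.trans (pOmegaEquiv QF)))
  set g : Matrix.GeneralLinearGroup ι F := (glEquiv ι F).symm (linOfSemi σ γ hγ) with hg
  have hgv : ∀ v : ι → F, (g : Matrix ι ι F).mulVec (fun i => σ (v i)) = γ v := by
    intro v
    rw [← glEquiv_apply, hg, MulEquiv.apply_symm_apply, linOfSemi_apply]
  refine ⟨g, σ, ⟨Units.mk0 c hc, fun v => ?_⟩, ?_⟩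
  · rw [hgv, hQ]
    rfl
  · intro s s' hss'
    have h1 := hα (omegaEquiv QF s) (omegaEquiv QF s') (by
      intro x
      rw [omegaEquiv_apply, omegaEquiv_apply, hss', ← hgv, ← hgv, Matrix.mulVec_mulVec]
      have e1 : (g : Matrix ι ι F) * ((((s : ↥(Cfsg.isometryGroup F ⇑QF)) :
          Matrix.GeneralLinearGroup ι F) : Matrix ι ι F)).map σ *
          ((g⁻¹ : Matrix.GeneralLinearGroup ι F) : Matrix ι ι F) * (g : Matrix ι ι F) =
          (g : Matrix ι ι F) * ((((s : ↥(Cfsg.isometryGroup F ⇑QF)) :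
          Matrix.GeneralLinearGroup ι F) : Matrix ι ι F)).map σ := by
        rw [mul_assoc, ← Units.val_mul, inv_mul_cancel, Units.val_one, mul_one]
      rw [e1, ← Matrix.mulVec_mulVec]
      congr 1
      funext i
      simp only [Matrix.mulVec, dotProduct, Matrix.map_apply, map_sum, map_mul])
    apply (pOmegaEquiv QF).injective
    rw [pOmegaEquiv_mk, ← h1, ← pOmegaEquiv_mk]
    simp

end Cfsg.Agent.Lib.Helper29.AutO
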