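import Cfsg.Agent.Lib.Helper49.WittOmega

/-!
# Rung IRR of the AUT-ORTH ladder

The stabiliser in `Ω(V)` of a singular vector `e` acts irreducibly on `e^⊥ / ⟨e⟩`.
-/

set_option autoImplicit false

namespace Cfsg.Agent.Lib.Helper29.AutO

open QuadraticMap Module Cfsg.Agent.Lib.Helper49

variable {F V : Type*} [Field F] [Fintype F] [AddCommGroup V] [Module F V]
  [FiniteDimensional F V]

/-- a hyperbolic pair orthogonal to two given vectors -/
theorem exists_hyp_pair_perp (Q : QuadraticForm F V) (hQ : (polarBilin Q).Nondegenerate)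
    (hd : 7 ≤ finrank F V) (a b : V) :
    ∃ u u' : V, Q u = 0 ∧ Q u' = 0 ∧ polar Q u u' = 1 ∧ polar Q a u = 0 ∧ polar Q a u' = 0 ∧
      polar Q b u = 0 ∧ polar Q b u' = 0 := by
  have h1 := LinearMap.BilinForm.finrank_orthogonal hQ (Submodule.span F (Set.range ![a, b]))
  have h2 : finrank F (Submodule.span F (Set.range ![a, b])) ≤ 2 := by
    have := finrank_range_le_card (R := F) ![a, b]
    simpa [Set.finrank] using this
  obtain ⟨u, hu, u', hu', h3, h4, h5⟩ := exists_hyp_pair_mem Q hQ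
    (LinearMap.BilinForm.orthogonal (polarBilin Q) (Submodule.span F (Set.range ![a, b])))
    (by omega)
  have ha : a ∈ Submodule.span F (Set.range ![a, b]) := Submodule.subset_span ⟨0, rfl⟩
  have hb : b ∈ Submodule.span F (Set.range ![a, b]) := Submodule.subset_span ⟨1, rfl⟩
  exact ⟨u, u', h3, h4, h5, hu a ha, hu' a ha, hu b hb, hu' b hb⟩

/-- RUNG IRR -/
theorem irr_point (Q : QuadraticForm F V) (hQ : (polarBilin Q).Nondegenerate)
    (hd : 7 ≤ finrank F V) {e : V} (he : Q e = 0) (he0 : e ≠ 0) (C : Submodule F V)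
    (h1 : e ∈ C) (h2 : ∃ x ∈ C, ∀ c : F, x ≠ c • e) (h3 : ∀ x ∈ C, polar Q e x = 0)
    (hinv : ∀ g ∈ commutator (OG Q), g.1 e = e → ∀ x ∈ C, g.1 x ∈ C) :
    ∀ x, polar Q e x = 0 → x ∈ C := by
  -- transitivity property
  have P : ∀ y ∈ C, ∀ y', (∀ c : F, y ≠ c • e) → (∀ c : F, y' ≠ c • e) → polar Q e y' = 0 →
      Q y = Q y' → y' ∈ C := by
    intro y hy y' hye hy'e hey' hQy
    have li : ∀ w : V, (∀ c : F, w ≠ c • e) → LinearIndependent F ![w, e] := by
      intro w hw
      rw [linearIndependent_fin2]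
      exact ⟨he0, fun a h => hw a h.symm⟩
    obtain ⟨k, hk, hk1, hk2⟩ := exists_commutator_map_pair Q hQ hd (li y hye) (li y' hy'e) hQy rfl
      (by rw [polar_comm, h3 y hy, polar_comm, hey'])
    rw [← hk1]
    exact hinv k hk hk2 y hy
  obtain ⟨y, hyC, hye⟩ := h2
  -- a singular vector in `C` outside `⟨e⟩`
  obtain ⟨u, u', hu, hu', huu', heu, heu', hyu, hyu'⟩ := exists_hyp_pair_perp Q hQ hd e y
  have hne : ∀ w : V, polar Q w u' ≠ 0 → ∀ c : F, w ≠ c • e := by
    intro w hw c h
    apply hw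
    rw [h, polar_smul_left, heu', smul_zero]
  have huC : u ∈ C := by
    have : y + u ∈ C := by
      refine P y hyC (y + u) hye (hne _ ?_) ?_ ?_
      · rw [polar_add_left, hyu', huu', zero_add]
        exact one_ne_zero
      · rw [polar_add_right, h3 y hyC, heu, add_zero]
      · rw [Q_add_eq, hu, hyu, add_zero, add_zero]
    have h4 := C.sub_mem this hyC
    rwa [add_sub_cancel_left] at h4
  have hue : ∀ c : F, u ≠ c • e := hne u (by rw [huu']; exact one_ne_zero)
  -- all singular vectors of `e^⊥` are in `C`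
  have S : ∀ s, Q s = 0 → polar Q e s = 0 → s ∈ C := by
    intro s hs hes
    by_cases h : ∃ c : F, s = c • e
    · obtain ⟨c, rfl⟩ := h
      exact C.smul_mem c h1
    · push Not at h
      exact P u huC s hue h hes (by rw [hu, hs])
  intro x hx
  obtain ⟨v, v', hv, hv', hvv', hev, hev', hxv, hxv'⟩ := exists_hyp_pair_perp Q hQ hd e x
  have e1 : x = (x + (-(Q x) • v + v')) + (Q x • v - v') := by
    rw [neg_smul]; abel
  rw [e1]
  refine C.add_mem (S _ ?_ ?_) (C.sub_mem (C.smul_mem _ (S v hv hev)) (S v' hv' hev'))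
  · rw [Q_add_eq, Q_add_eq, QuadraticMap.map_smul, hv, hv', polar_smul_left, hvv',
      polar_add_right, polar_smul_right, hxv, hxv']
    simp
  · rw [polar_add_right, polar_add_right, polar_smul_right, hx, hev, hev']
    simp

end Cfsg.Agent.Lib.Helper29.AutO
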