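import Cfsg.Agent.Lib.Helper2.BG96B
import Cfsg.Agent.Lib.Helper3.ClassTwo
import Cfsg.Agent.Lib.Helper58.BG9e
import Cfsg.Agent.Lib.Helper12.Card
import Cfsg.Agent.S1324

/-!
# Rung R2a of the B-G ladder
-/

set_option autoImplicit false

namespace Cfsg.Agent.Lib.Helper29.R2a

open Subgroup Cfsg.Agent.Lib.Helper2 Cfsg.Agent.Lib.Helper2.BG96

variable {G : Type*} [Group G]

theorem le_normalizer_of_conj {N R : Subgroup G}
    (h : ∀ g ∈ N, ∀ x ∈ R, g * x * g⁻¹ ∈ R) : N ≤ normalizer (R : Set G) := by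
  intro g hg
  rw [mem_normalizer_iff]
  intro x
  refine ⟨h g hg x, fun hx => ?_⟩
  have := h g⁻¹ (N.inv_mem hg) _ hx
  simpa [mul_assoc] using this

/-- elements of `omZ` commute with `T` -/
theorem omZ_comm {t : ℕ} {T : Subgroup G} {z g : G} (hz : z ∈ omZ t T) (hg : g ∈ T) :
    g * z = z * g := mem_centralizer_iff.mp hz.2.1 g hg

/-- `Ω₁` of the second centre, for odd `t` -/
def T1 (t : ℕ) (ht : t ∣ t.choose 2) (T : Subgroup G) : Subgroup G where
  carrier := {x | x ∈ T ∧ x ^ t = 1 ∧ ∀ g ∈ T, x * g * x⁻¹ * g⁻¹ ∈ omZ t T}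
  one_mem' := ⟨one_mem _, one_pow _, fun g _ => by simp [one_mem]⟩
  inv_mem' := by
    rintro x ⟨hx, hxt, hxc⟩
    refine ⟨inv_mem hx, by rw [inv_pow, hxt, inv_one], fun g hg => ?_⟩
    have h1 := hxc g hg
    have h2 : x⁻¹ * g * x⁻¹⁻¹ * g⁻¹ = x⁻¹ * (x * g * x⁻¹ * g⁻¹)⁻¹ * x := by group
    rw [h2, omZ_comm (inv_mem h1) (inv_mem hx), mul_assoc, inv_mul_cancel, mul_one]
    exact inv_mem h1
  mul_mem' := by
    rintro x y ⟨hx, hxt, hxc⟩ ⟨hy, hyt, hyc⟩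
    have hinv : ∀ g ∈ T, y⁻¹ * g * y * g⁻¹ ∈ omZ t T := by
      intro g hg
      have h1 := hyc g hg
      have h2 : y⁻¹ * g * y * g⁻¹ = y⁻¹ * (y * g * y⁻¹ * g⁻¹)⁻¹ * y := by group
      rw [h2, omZ_comm (inv_mem h1) (inv_mem hy), mul_assoc, inv_mul_cancel, mul_one]
      exact inv_mem h1
    refine ⟨mul_mem hx hy, ?_, fun g hg => ?_⟩
    · have hc := hinv x⁻¹ (inv_mem hx)
      rw [inv_inv] at hc
      have e : y * x = x * y * (y⁻¹ * x⁻¹ * y * x) := by group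
      rw [Cfsg.Agent.Lib.Helper3.mul_pow_of_central e (omZ_comm hc hx).symm (omZ_comm hc hy).symm,
        hxt, hyt, one_mul, one_mul]
      obtain ⟨k, hk⟩ := ht
      rw [hk, pow_mul, hc.2.2, one_pow]
    · have h1 := hyc g hg
      have h2 : x * y * g * (x * y)⁻¹ * g⁻¹ =
          x * (y * g * y⁻¹ * g⁻¹) * x⁻¹ * (x * g * x⁻¹ * g⁻¹) := by group
      rw [h2, omZ_comm h1 hx, mul_assoc _ x, mul_inv_cancel, mul_one]
      exact mul_mem h1 (hxc g hg)

theorem mem_T1 {t : ℕ} {ht : t ∣ t.choose 2} {T : Subgroup G} {x : G} :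
    x ∈ T1 t ht T ↔ x ∈ T ∧ x ^ t = 1 ∧ ∀ g ∈ T, x * g * x⁻¹ * g⁻¹ ∈ omZ t T := Iff.rfl

/-- a normal subgroup not contained in a central subgroup `Z` has an element outside `Z` which is
central modulo `Z` -/
theorem exists_second_central [Finite G] {t : ℕ} [Fact t.Prime] {T W Z : Subgroup G}
    (hT : IsPGroup t T) (hTW : T ≤ normalizer (W : Set G)) (hWT : W ≤ T)
    (hZc : Z ≤ centralizer (T : Set G)) (hWZ : ¬ W ≤ Z) :
    ∃ x ∈ W, x ∉ Z ∧ ∀ g ∈ T, x * g * x⁻¹ * g⁻¹ ∈ Z := by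
  have hZn : (Z.subgroupOf T).Normal := by
    refine ⟨fun z hz g => ?_⟩
    rw [mem_subgroupOf] at hz ⊢
    have h1 := mem_centralizer_iff.mp (hZc hz) g g.2
    show (g : G) * z * (g : G)⁻¹ ∈ Z
    rw [h1, mul_assoc, mul_inv_cancel, mul_one]
    exact hz
  have hWn : (W.subgroupOf T).Normal := normal_subgroupOf_of_le_normalizer hTW
  have hQ : IsPGroup t (T ⧸ Z.subgroupOf T) := hT.to_quotient _
  have hn : ((W.subgroupOf T).map (QuotientGroup.mk' (Z.subgroupOf T))).Normal :=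
    hWn.map _ (QuotientGroup.mk'_surjective _)
  have hne : (W.subgroupOf T).map (QuotientGroup.mk' (Z.subgroupOf T)) ≠ ⊥ := by
    intro h
    apply hWZ
    intro w hw
    have h1 : QuotientGroup.mk' (Z.subgroupOf T) ⟨w, hWT hw⟩ ∈
        (W.subgroupOf T).map (QuotientGroup.mk' (Z.subgroupOf T)) :=
      mem_map_of_mem _ (mem_subgroupOf.mpr hw)
    rw [h, mem_bot, QuotientGroup.mk'_apply, QuotientGroup.eq_one_iff] at h1
    exact mem_subgroupOf.mp h1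
  have h := Cfsg.Agent.Lib.Helper3.normal_inf_center_ne_bot' hQ _ hne
  obtain ⟨⟨q, hq⟩, hq1⟩ := Subgroup.ne_bot_iff_exists_ne_one.mp h
  obtain ⟨hqW, hqZ⟩ := mem_inf.mp hq
  obtain ⟨x, hx, rfl⟩ := mem_map.mp hqW
  refine ⟨x, mem_subgroupOf.mp hx, fun hxZ => hq1 ?_, fun g hg => ?_⟩
  · apply Subtype.ext
    show QuotientGroup.mk' (Z.subgroupOf T) x = 1
    rw [QuotientGroup.mk'_apply, QuotientGroup.eq_one_iff]
    exact mem_subgroupOf.mpr hxZ
  · have h1 := mem_center_iff.mp hqZ (QuotientGroup.mk' (Z.subgroupOf T) ⟨g, hg⟩)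
    have h2 : QuotientGroup.mk' (Z.subgroupOf T) (x * ⟨g, hg⟩ * x⁻¹ * (⟨g, hg⟩ : T)⁻¹) = 1 := by
      rw [map_mul, map_mul, map_mul, ← h1, map_inv, map_inv]
      group
    rw [QuotientGroup.mk'_apply, QuotientGroup.eq_one_iff] at h2
    exact mem_subgroupOf.mp h2

theorem exists_normal_sq_centralized [Finite G] {p t : ℕ} [Fact p.Prime]
    [ht : Fact t.Prime] (ht2 : t ≠ 2) (htp : t ≠ p) {E T0 : Subgroup G}
    (hE : Cfsg.IsElementaryAbelian p E) (hE2 : p ^ 2 ≤ Nat.card E) (hT0 : IsPGroup t T0)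
    (hET : E ≤ Subgroup.normalizer (T0 : Set G)) (hnc : ¬ IsCyclic T0)
    (hZ : Nat.card (Cfsg.Agent.Lib.Helper2.BG96.omZ t T0) = t)
    (hEZ : E ≤ Subgroup.centralizer (Cfsg.Agent.Lib.Helper2.BG96.omZ t T0 : Set G)) :
    ∃ B W : Subgroup G, B ≤ E ∧ B.relIndex E ≤ p ∧ W ≤ T0 ∧
      T0 ≤ Subgroup.normalizer (W : Set G) ∧ Cfsg.IsElementaryAbelian t W ∧
      Nat.card W = t ^ 2 ∧ B ≤ Subgroup.centralizer (W : Set G) := by
  have htc : t ∣ t.choose 2 := by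
    apply ht.out.dvd_choose_self (by norm_num)
    have := ht.out.two_le
    omega
  set Z1 := omZ t T0 with hZ1
  -- an element of `T1` outside `Z1`
  obtain ⟨W0, hW0T, hTW0, hW0ea, hW0c⟩ := Cfsg.Agent.Lib.Helper58.BG9.exists_normal_sq ht2 hT0 hnc
  have hW0Z : ¬ W0 ≤ Z1 := by
    intro h
    have h1 := Subgroup.card_le_of_le h
    rw [hW0c, hZ] at h1
    have := ht.out.two_le
    nlinarith
  have hZ1c : Z1 ≤ centralizer (T0 : Set G) := fun z hz => hz.2.1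
  obtain ⟨x0, hx0W, hx0Z, hx0c⟩ := exists_second_central hT0 hTW0 hW0T hZ1c hW0Z
  have hx0 : x0 ∈ T1 t htc T0 := ⟨hW0T hx0W, hW0ea.2 x0 hx0W, hx0c⟩
  -- `E` normalizes `T1`
  have hET1 : E ≤ normalizer (T1 t htc T0 : Set G) := by
    apply le_normalizer_of_conj
    rintro e he x ⟨hx, hxt, hxc⟩
    have hn : ∀ y ∈ T0, e * y * e⁻¹ ∈ T0 := fun y hy => (mem_normalizer_iff.mp (hET he) y).mp hy
    have hn' : ∀ y ∈ T0, e⁻¹ * y * e ∈ T0 := fun y hy => by
      have := (mem_normalizer_iff.mp (hET (inv_mem he)) y).mp hy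
      rwa [inv_inv] at this
    refine ⟨hn x hx, by rw [conj_pow, hxt]; group, fun g hg => ?_⟩
    have h1 := hxc _ (hn' g hg)
    have h2 : e * x * e⁻¹ * g * (e * x * e⁻¹)⁻¹ * g⁻¹ =
        e * (x * (e⁻¹ * g * e) * x⁻¹ * (e⁻¹ * g * e)⁻¹) * e⁻¹ := by group
    rw [h2]
    have h3 := mem_centralizer_iff.mp (hEZ he) _ h1
    rw [← h3, mul_assoc, mul_inv_cancel, mul_one]
    exact h1
  have hT1p : ¬ p ∣ Nat.card (T1 t htc T0) := by
    have hT1 : IsPGroup t (T1 t htc T0) := hT0.to_le (fun x hx => hx.1)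
    obtain ⟨n, hn⟩ := IsPGroup.iff_card.mp hT1
    rw [hn]
    intro h
    exact htp ((Nat.prime_dvd_prime_iff_eq Fact.out ht.out).mp
      ((Fact.out : p.Prime).dvd_of_dvd_pow h)).symm
  have hgen := Cfsg.Agent.S1324.result p E (T1 t htc T0) hE hE2 hT1p hET1
  obtain ⟨B, hBE, hBi, w, hwT1, hwB, hwZ⟩ : ∃ B : Subgroup G, B ≤ E ∧ B.relIndex E ≤ p ∧
      ∃ w ∈ T1 t htc T0, w ∈ centralizer (B : Set G) ∧ w ∉ Z1 := by
    by_contra hcon
    push Not at hcon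
    apply hx0Z
    have : T1 t htc T0 ≤ Z1 := by
      rw [hgen]
      apply iSup_le
      rintro ⟨B, hBE, hBi⟩ w hw
      exact hcon B hBE hBi w (mem_inf.mp hw).1 (mem_inf.mp hw).2
    exact this hx0
  obtain ⟨hwT, hwt, hwc⟩ := hwT1
  have hZ1T : Z1 ≤ T0 := omZ_le t T0
  have hzw : zpowers w ≤ T0 := zpowers_le.mpr hwT
  have hea : Cfsg.IsElementaryAbelian t (Z1 ⊔ zpowers w) := by
    apply ea_sup (omZ_ea t T0) (ea_zpowers hwt)
    intro a ha b hb
    exact (omZ_comm ha (hzw hb)).symm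
  refine ⟨B, Z1 ⊔ zpowers w, hBE, hBi, sup_le hZ1T hzw, ?_, hea, ?_, ?_⟩
  · apply le_normalizer_of_conj
    intro g hg x hx
    have hmap : (Z1 ⊔ zpowers w).map (MulAut.conj g).toMonoidHom ≤ Z1 ⊔ zpowers w := by
      rw [Subgroup.map_sup]
      apply sup_le
      · rintro _ ⟨z, hz, rfl⟩
        show g * z * g⁻¹ ∈ _
        rw [omZ_comm hz hg, mul_assoc, mul_inv_cancel, mul_one]
        exact mem_sup_left hz
      · rw [MonoidHom.map_zpowers, zpowers_le]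
        show g * w * g⁻¹ ∈ _
        have h1 := hwc g hg
        have h2 : g * w * g⁻¹ = (w * g * w⁻¹ * g⁻¹)⁻¹ * w := by group
        rw [h2]
        exact mul_mem (mem_sup_left (inv_mem h1)) (mem_sup_right (mem_zpowers w))
    exact hmap ⟨x, hx, rfl⟩
  · have hWp : IsPGroup t (Z1 ⊔ zpowers w : Subgroup G) := hT0.to_le (sup_le hZ1T hzw)
    have hlt : t < Nat.card (Z1 ⊔ zpowers w : Subgroup G) := by
      rw [← hZ]
      apply Set.ncard_lt_ncard (s := (Z1 : Set G)) (t := ((Z1 ⊔ zpowers w : Subgroup G) : Set G))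
        ?_ (Set.toFinite _)
      refine ⟨(le_sup_left : Z1 ≤ Z1 ⊔ zpowers w), fun h => hwZ ?_⟩
      exact h (mem_sup_right (mem_zpowers w))
    have hle : Nat.card (Z1 ⊔ zpowers w : Subgroup G) ≤ t ^ 2 := by
      have h1 := Cfsg.Agent.Lib.Helper12.card_sup_mul_card_inf' (zpowers w) Z1 (by
        apply le_normalizer_of_conj
        intro g hg z hz
        rw [omZ_comm hz (hzw hg), mul_assoc, mul_inv_cancel, mul_one]
        exact hz)
      have h2 : Nat.card (zpowers w) ≤ t := by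
        rw [Nat.card_zpowers]
        exact Nat.le_of_dvd ht.out.pos (orderOf_dvd_of_pow_eq_one hwt)
      have h3 : 0 < Nat.card (zpowers w ⊓ Z1 : Subgroup G) := Nat.card_pos
      rw [sup_comm, hZ] at h1
      calc Nat.card (Z1 ⊔ zpowers w : Subgroup G)
          ≤ Nat.card (Z1 ⊔ zpowers w : Subgroup G) * Nat.card (zpowers w ⊓ Z1 : Subgroup G) :=
            Nat.le_mul_of_pos_right _ h3
        _ = Nat.card (zpowers w) * t := h1
        _ ≤ t * t := Nat.mul_le_mul_right _ h2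
        _ = t ^ 2 := (sq t).symm
    exact le_antisymm hle (sq_le_card_of_lt hWp hlt)
  · rw [le_centralizer_iff]
    apply sup_le
    · rw [← le_centralizer_iff]
      exact hBE.trans hEZ
    · exact zpowers_le.mpr hwB

end Cfsg.Agent.Lib.Helper29.R2a
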