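import Mathlib

set_option autoImplicit false

namespace Cfsg.Agent.Lib.Helper29

open scoped commutatorElement

/-- Abelian case of the generalized `A × B` lemma: `K` a `p'`-group of automorphisms of the finite
abelian `p`-group `U`, normalized by the `p`-group `E`.  If every `E`-fixed element of order
dividing `p` is `K`-fixed, then `K` acts trivially. -/
theorem abelian_fixed {U : Type*} [CommGroup U] [Finite U] {p : ℕ} [Fact p.Prime]
    (hU : IsPGroup p U) (K E : Subgroup (MulAut U)) (hK : (Nat.card K).Coprime p)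
    (hE : IsPGroup p E) (hEK : E ≤ Subgroup.normalizer (K : Set (MulAut U)))
    (h : ∀ u : U, u ^ p = 1 → (∀ e ∈ E, e u = u) → ∀ k ∈ K, k u = u) :
    ∀ k ∈ K, ∀ u : U, k u = u := by
  classical
  have : Finite (MulAut U) := Finite.of_injective (fun f : MulAut U => (f : U → U))
    (fun f g hfg => MulEquiv.ext (congrFun hfg))
  let _ : Fintype K := Fintype.ofFinite K
  let N : U →* U :=
    { toFun := fun u => ∏ k : K, (k : MulAut U) u
      map_one' := by simp
      map_mul' := fun a b => by simp [Finset.prod_mul_distrib] }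
  have hN : ∀ u, N u = ∏ k : K, (k : MulAut U) u := fun _ => rfl
  -- `N` is invariant under `K`
  have hNK : ∀ k ∈ K, ∀ u, N (k u) = N u := by
    intro k hk u
    rw [hN, hN]
    exact Fintype.prod_equiv (Equiv.mulRight (⟨k, hk⟩ : K)) _ _ (fun x => rfl)
  -- `N` commutes with `E`
  have hNE : ∀ e ∈ E, ∀ u, N (e u) = e (N u) := by
    intro e he u
    rw [hN, hN, map_prod]
    have hn := hEK he
    let σ : K ≃ K :=
      { toFun := fun k => ⟨e * k * e⁻¹, (Subgroup.mem_normalizer_iff.1 hn k).1 k.2⟩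
        invFun := fun k => ⟨e⁻¹ * k * e, by
          have := (Subgroup.mem_normalizer_iff.1 hn (e⁻¹ * k * e)).2
          apply this
          have h2 : e * (e⁻¹ * (k : MulAut U) * e) * e⁻¹ = k := by group
          rw [h2]; exact k.2⟩
        left_inv := fun k => by ext1; simp [mul_assoc]
        right_inv := fun k => by ext1; simp [mul_assoc] }
    refine (Fintype.prod_equiv σ _ _ (fun x => ?_)).symm
    change e ((x : MulAut U) u) = (e * x * e⁻¹) (e u)
    simp [MulAut.mul_apply]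
  by_contra hcon
  push Not at hcon
  obtain ⟨k, hk, u, hku⟩ := hcon
  -- a nontrivial element of `ker N`
  set x := u⁻¹ * k u with hx
  have hx1 : x ≠ 1 := by
    intro h1
    apply hku
    rw [hx, inv_mul_eq_one] at h1
    exact h1.symm
  have hxN : N x = 1 := by
    rw [hx, map_mul, map_inv, hNK k hk, inv_mul_cancel]
  let W : Subgroup U := N.ker ⊓ (powMonoidHom p : U →* U).ker
  have hWmem : ∀ w, w ∈ W ↔ N w = 1 ∧ w ^ p = 1 := by
    intro w
    simp only [W, Subgroup.mem_inf, MonoidHom.mem_ker, powMonoidHom_apply]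
  have hWne : W ≠ ⊥ := by
    have h1 : p ∣ Nat.card N.ker := by
      rcases (hU.to_subgroup N.ker).card_eq_or_dvd with h1 | h1
      · exfalso
        rw [Subgroup.card_eq_one] at h1
        apply hx1
        have : x ∈ N.ker := hxN
        rwa [h1, Subgroup.mem_bot] at this
      · exact h1
    obtain ⟨y, hy⟩ := exists_prime_orderOf_dvd_card' p h1
    intro hbot
    have hyW : (y : U) ∈ W := by
      rw [hWmem]
      refine ⟨y.2, ?_⟩
      have := pow_orderOf_eq_one y
      rw [hy] at this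
      exact_mod_cast congrArg Subtype.val this
    rw [hbot, Subgroup.mem_bot] at hyW
    have hy1 : y = 1 := Subtype.ext hyW
    rw [hy1, orderOf_one] at hy
    exact (Fact.out : p.Prime).one_lt.ne hy
  -- the action of `E` on `W`
  have hWE : ∀ e ∈ E, ∀ w ∈ W, e w ∈ W := by
    intro e he w hw
    rw [hWmem] at hw ⊢
    refine ⟨by rw [hNE e he, hw.1, map_one], by rw [← map_pow, hw.2, map_one]⟩
  let _ : MulAction E W :=
    { smul := fun e w => ⟨(e : MulAut U) w, hWE e e.2 w w.2⟩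
      one_smul := fun w => Subtype.ext rfl
      mul_smul := fun a b w => Subtype.ext rfl }
  have hsmul : ∀ (e : E) (w : W), ((e • w : W) : U) = (e : MulAut U) w := fun _ _ => rfl
  have hpW : p ∣ Nat.card W := by
    rcases (hU.to_subgroup W).card_eq_or_dvd with h1 | h1
    · exact absurd (Subgroup.card_eq_one.1 h1) hWne
    · exact h1
  have hfix1 : (1 : W) ∈ MulAction.fixedPoints E W := by
    intro e
    apply Subtype.ext
    rw [hsmul]
    simp
  obtain ⟨w, hw, hw1⟩ := hE.exists_fixed_point_of_prime_dvd_card_of_fixed_point W hpW hfix1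
  apply hw1
  have hwW := (hWmem w).1 w.2
  have hwK : ∀ k ∈ K, k (w : U) = w := by
    apply h _ hwW.2
    intro e he
    have := hw ⟨e, he⟩
    rw [← hsmul ⟨e, he⟩ w, this]
  have h2 : (w : U) ^ Nat.card K = 1 := by
    have h3 := hwW.1
    rw [hN] at h3
    rw [← h3, Finset.prod_congr rfl (fun (k : K) _ => hwK (k : MulAut U) k.2), Finset.prod_const, Finset.card_univ,
      Nat.card_eq_fintype_card]
  apply Subtype.ext
  have h4 : orderOf (w : U) ∣ 1 := by
    rw [← Nat.Coprime.gcd_eq_one hK]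
    exact Nat.dvd_gcd (orderOf_dvd_of_pow_eq_one h2) (orderOf_dvd_of_pow_eq_one hwW.2)
  exact (orderOf_eq_one_iff.1 (Nat.dvd_one.1 h4)).symm

section class2

variable {R : Type*} [Group R]

theorem c2_mul_left (hc : ∀ x y z : R, ⁅x, y⁆ * z = z * ⁅x, y⁆) (x y z : R) :
    ⁅x * y, z⁆ = ⁅x, z⁆ * ⁅y, z⁆ := by
  have h1 : ⁅x * y, z⁆ = x * ⁅y, z⁆ * x⁻¹ * ⁅x, z⁆ := by
    simp only [commutatorElement_def]; group
  rw [h1, ← hc y z x, mul_inv_cancel_right, hc]

theorem c2_mul_right (hc : ∀ x y z : R, ⁅x, y⁆ * z = z * ⁅x, y⁆) (x y z : R) :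
    ⁅x, y * z⁆ = ⁅x, y⁆ * ⁅x, z⁆ := by
  rw [← commutatorElement_inv, c2_mul_left hc, mul_inv_rev, commutatorElement_inv,
    commutatorElement_inv, hc]

theorem c2_pow_central (hc : ∀ x y z : R, ⁅x, y⁆ * z = z * ⁅x, y⁆) (x y z : R) (n : ℕ) :
    ⁅x, y⁆ ^ n * z = z * ⁅x, y⁆ ^ n :=
  ((show Commute ⁅x, y⁆ z from hc x y z).pow_left n).eq

theorem c2_comm_pow_right (hc : ∀ x y z : R, ⁅x, y⁆ * z = z * ⁅x, y⁆) (x y z : R) (n : ℕ) :
    ⁅z, ⁅x, y⁆ ^ n⁆ = 1 :=
  commutatorElement_eq_one_iff_commute.2 (c2_pow_central hc x y z n).symm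

theorem c2_comm_pow_left (hc : ∀ x y z : R, ⁅x, y⁆ * z = z * ⁅x, y⁆) (x y z : R) (n : ℕ) :
    ⁅⁅x, y⁆ ^ n, z⁆ = 1 :=
  commutatorElement_eq_one_iff_commute.2 (c2_pow_central hc x y z n)

/-- A copy of `R`, to carry the Baer group structure. -/
structure Baer (R : Type*) where
  /-- the underlying element -/
  val : R

omit [Group R] in
theorem Baer.ext' {a b : Baer R} (h : a.val = b.val) : a = b := by
  cases a; cases b; cases h; rfl

/-- The Baer multiplication `x ∘ y = x y [y,x]^h` where `h` is the inverse of `2`. -/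
def baerMul (h : ℕ) (x y : R) : R := x * y * ⁅y, x⁆ ^ h

theorem baerMul_assoc (h : ℕ) (hc : ∀ x y z : R, ⁅x, y⁆ * z = z * ⁅x, y⁆) (x y z : R) :
    baerMul h (baerMul h x y) z = baerMul h x (baerMul h y z) := by
  unfold baerMul
  rw [c2_mul_right hc, c2_mul_right hc, c2_comm_pow_right hc, mul_one,
    c2_mul_left hc, c2_mul_left hc, c2_comm_pow_left hc, mul_one,
    (show Commute ⁅z, x⁆ ⁅z, y⁆ from hc _ _ _).mul_pow,
    (show Commute ⁅y, x⁆ ⁅z, x⁆ from hc _ _ _).mul_pow]
  have e1 : x * y * ⁅y, x⁆ ^ h * z = x * y * z * ⁅y, x⁆ ^ h := by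
    rw [mul_assoc (x * y), c2_pow_central hc, ← mul_assoc]
  rw [e1]
  have e2 : ⁅z, x⁆ ^ h * ⁅z, y⁆ ^ h = ⁅z, y⁆ ^ h * ⁅z, x⁆ ^ h := c2_pow_central hc _ _ _ _
  have e3 : ⁅y, x⁆ ^ h * ⁅z, y⁆ ^ h = ⁅z, y⁆ ^ h * ⁅y, x⁆ ^ h := c2_pow_central hc _ _ _ _
  rw [e2]
  simp only [mul_assoc]
  rw [← mul_assoc (⁅y, x⁆ ^ h), e3, mul_assoc]

theorem baerMul_comm (h : ℕ) (hc : ∀ x y z : R, ⁅x, y⁆ * z = z * ⁅x, y⁆)
    (hh : ∀ x y : R, ⁅x, y⁆ ^ (2 * h) = ⁅x, y⁆) (x y : R) :
    baerMul h x y = baerMul h y x := by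
  unfold baerMul
  have h1 : x * y = y * x * ⁅x, y⁆ := by
    rw [← hc]; simp only [commutatorElement_def]; group
  have h2 : ⁅x, y⁆ = ⁅x, y⁆ ^ h * ⁅x, y⁆ ^ h := by
    rw [← pow_add, ← two_mul, hh]
  have h3 : ⁅x, y⁆ ^ h * ⁅y, x⁆ ^ h = 1 := by
    rw [← commutatorElement_inv x y, inv_pow, mul_inv_cancel]
  rw [h1, mul_assoc (y * x)]
  congr 1
  nth_rw 1 [h2]
  rw [mul_assoc, h3, mul_one]

theorem one_baerMul (h : ℕ) (x : R) : baerMul h 1 x = x := by simp [baerMul]

theorem baerMul_one (h : ℕ) (x : R) : baerMul h x 1 = x := by simp [baerMul]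

theorem inv_baerMul (h : ℕ) (x : R) : baerMul h x⁻¹ x = 1 := by
  have : ⁅x, x⁻¹⁆ = 1 := commutatorElement_eq_one_iff_commute.2 (Commute.inv_right (Commute.refl x))
  simp [baerMul, this]

/-- The Baer group structure. -/
@[reducible] def Baer.commGroup (h : ℕ) (hc : ∀ x y z : R, ⁅x, y⁆ * z = z * ⁅x, y⁆)
    (hh : ∀ x y : R, ⁅x, y⁆ ^ (2 * h) = ⁅x, y⁆) : CommGroup (Baer R) where
  mul a b := ⟨baerMul h a.val b.val⟩
  one := ⟨1⟩
  inv a := ⟨a.val⁻¹⟩
  mul_assoc a b c := Baer.ext' (baerMul_assoc h hc _ _ _)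
  one_mul a := Baer.ext' (one_baerMul h _)
  mul_one a := Baer.ext' (baerMul_one h _)
  inv_mul_cancel a := Baer.ext' (inv_baerMul h _)
  mul_comm a b := Baer.ext' (baerMul_comm h hc hh _ _)

/-- Class two case of the generalized `A × B` lemma (`p` odd), by the Baer trick. -/
theorem class2_fixed [Finite R] {p : ℕ} [Fact p.Prime] (hp : p ≠ 2)
    (hR : IsPGroup p R) (hc : ∀ x y z : R, ⁅x, y⁆ * z = z * ⁅x, y⁆)
    (K E : Subgroup (MulAut R)) (hK : (Nat.card K).Coprime p) (hE : IsPGroup p E)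
    (hEK : E ≤ Subgroup.normalizer (K : Set (MulAut R)))
    (h : ∀ u : R, u ^ p = 1 → (∀ e ∈ E, e u = u) → ∀ k ∈ K, k u = u) :
    ∀ k ∈ K, ∀ u : R, k u = u := by
  have hodd : Odd (Nat.card R) := by
    obtain ⟨n, hn⟩ := (IsPGroup.iff_card).1 hR
    rw [hn]
    exact ((Fact.out : p.Prime).odd_of_ne_two hp).pow
  obtain ⟨m, hm⟩ := hodd
  have hh : ∀ x y : R, ⁅x, y⁆ ^ (2 * (m + 1)) = ⁅x, y⁆ := by
    intro x y
    have h1 : 2 * (m + 1) = Nat.card R + 1 := by omega
    rw [h1, pow_succ, pow_card_eq_one', one_mul]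
  let _ := Baer.commGroup (m + 1) hc hh
  have hmul : ∀ a b : Baer R, (a * b).val = baerMul (m + 1) a.val b.val := fun _ _ => rfl
  have hone : (1 : Baer R).val = 1 := rfl
  have hpow : ∀ (a : Baer R) (n : ℕ), (a ^ n).val = a.val ^ n := by
    intro a n
    induction n with
    | zero => simp [hone]
    | succ n ih =>
      have : ⁅a.val, a.val ^ n⁆ = 1 :=
        commutatorElement_eq_one_iff_commute.2 ((Commute.refl a.val).pow_right n)
      rw [pow_succ, hmul, ih, baerMul, this, one_pow, mul_one, pow_succ]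
  have hfin : Finite (Baer R) := Finite.of_injective (fun a : Baer R => a.val)
    (fun a b hab => Baer.ext' hab)
  have hfinA : Finite (MulAut R) := Finite.of_injective (fun f : MulAut R => (f : R → R))
    (fun f g hfg => MulEquiv.ext (congrFun hfg))
  have hU : IsPGroup p (Baer R) := by
    intro a
    obtain ⟨k, hk⟩ := hR a.val
    exact ⟨k, Baer.ext' (by rw [hpow, hk, hone])⟩
  let F : MulAut R →* MulAut (Baer R) :=
    { toFun := fun α =>
        { toFun := fun a => ⟨α a.val⟩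
          invFun := fun a => ⟨α.symm a.val⟩
          left_inv := fun a => Baer.ext' (by simp)
          right_inv := fun a => Baer.ext' (by simp)
          map_mul' := fun a b => Baer.ext' (by
            rw [hmul, hmul]
            simp only [baerMul, map_mul, map_pow, map_commutatorElement]) }
      map_one' := by ext a; rfl
      map_mul' := fun α β => by ext a; rfl }
  have hF : ∀ (α : MulAut R) (a : Baer R), (F α a).val = α a.val := fun _ _ => rfl
  have key := abelian_fixed hU (K.map F) (E.map F)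
    (Nat.Coprime.coprime_dvd_left (Subgroup.card_map_dvd K F) hK) (hE.map F)
    ((Subgroup.map_mono hEK).trans (Subgroup.le_normalizer_map F)) (by
      intro u hu hEu k hk
      obtain ⟨k0, hk0, rfl⟩ := hk
      apply Baer.ext'
      rw [hF]
      apply h u.val _ _ k0 hk0
      · rw [← hpow, hu, hone]
      · intro e he
        have := hEu (F e) ⟨e, he, rfl⟩
        rw [← hF, this])
  intro k hk u
  have := key (F k) ⟨k, hk, rfl⟩ ⟨u⟩
  exact congrArg Baer.val this

end class2

end Cfsg.Agent.Lib.Helper29
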