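import Mathlib

/-!
# An abstract form of Brandt's theorem

A finite dimensional symmetric algebra over an algebraically closed field whose centre is
spanned by `1` and a nonzero nilpotent `z` satisfies `dim A ≤ 2 * rank (z * ·)`.
-/

namespace Cfsg.Agent.Lib.Helper29.Brandt

open Module

section TraceForms

variable {F A : Type*} [Field F] [Ring A] [Algebra F A] [FiniteDimensional F A]

/-- every linear form is `t (c * ·)` -/
theorem exists_repr (t : A →ₗ[F] F) (hnd : ∀ x, (∀ y, t (x * y) = 0) → x = 0)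
    (f : A →ₗ[F] F) : ∃ c, ∀ a, f a = t (c * a) := by
  let Φ : A →ₗ[F] Dual F A := (LinearMap.mul F A).compr₂ t
  have hΦ : ∀ c a, Φ c a = t (c * a) := fun c a => rfl
  have hinj : Function.Injective Φ := by
    rw [← LinearMap.ker_eq_bot, LinearMap.ker_eq_bot']
    intro c hc
    apply hnd
    intro y
    rw [← hΦ, hc]
    rfl
  have hsurj : Function.Surjective Φ :=
    (LinearMap.injective_iff_surjective_of_finrank_eq_finrank
      (Subspace.dual_finrank_eq (K := F) (V := A)).symm).1 hinj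
  obtain ⟨c, hc⟩ := hsurj f
  exact ⟨c, fun a => by rw [← hc, hΦ]⟩

/-- every trace form is a combination of `t` and `t (z * ·)` -/
theorem trace_form_repr (t : A →ₗ[F] F) (ht : ∀ x y, t (x * y) = t (y * x))
    (hnd : ∀ x, (∀ y, t (x * y) = 0) → x = 0) (z : A)
    (hspan : ∀ c : A, (∀ x, c * x = x * c) → ∃ α β : F, c = α • 1 + β • z)
    (f : A →ₗ[F] F) (hf : ∀ x y, f (x * y) = f (y * x)) :
    ∃ α β : F, ∀ a, f a = α * t a + β * t (z * a) := by
  obtain ⟨c, hc⟩ := exists_repr t hnd f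
  have hcc : ∀ x, c * x = x * c := by
    intro x
    rw [← sub_eq_zero]
    apply hnd
    intro y
    rw [sub_mul, map_sub, sub_eq_zero, mul_assoc, ← hc, hf, hc, mul_assoc x c y, ht x,
      mul_assoc]
  obtain ⟨α, β, h⟩ := hspan c hcc
  refine ⟨α, β, fun a => ?_⟩
  rw [hc, h, add_mul, smul_mul_assoc, smul_mul_assoc, one_mul, map_add, map_smul, map_smul,
    smul_eq_mul, smul_eq_mul]

/-- two independent trace forms determine where `t` vanishes -/
theorem det_arg (t : A →ₗ[F] F) (ht : ∀ x y, t (x * y) = t (y * x))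
    (hnd : ∀ x, (∀ y, t (x * y) = 0) → x = 0) (z : A)
    (hspan : ∀ c : A, (∀ x, c * x = x * c) → ∃ α β : F, c = α • 1 + β • z)
    (f₁ f₂ : A →ₗ[F] F) (hf₁ : ∀ x y, f₁ (x * y) = f₁ (y * x))
    (hf₂ : ∀ x y, f₂ (x * y) = f₂ (y * x)) (a₁ a₂ : A) (h11 : f₁ a₁ ≠ 0) (h21 : f₂ a₁ = 0)
    (h22 : f₂ a₂ ≠ 0) (s : A) (h1 : f₁ s = 0) (h2 : f₂ s = 0) : t s = 0 := by
  obtain ⟨α₁, β₁, e₁⟩ := trace_form_repr t ht hnd z hspan f₁ hf₁
  obtain ⟨α₂, β₂, e₂⟩ := trace_form_repr t ht hnd z hspan f₂ hf₂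
  by_cases hdet : α₁ * β₂ - α₂ * β₁ = 0
  · exfalso
    have hb : β₂ * f₁ a₁ = 0 := by
      have : β₂ * f₁ a₁ - β₁ * f₂ a₁ = (α₁ * β₂ - α₂ * β₁) * t a₁ := by
        rw [e₁, e₂]; ring
      rw [hdet, h21] at this
      simpa using this
    have ha : α₂ * f₁ a₁ = 0 := by
      have : α₂ * f₁ a₁ - α₁ * f₂ a₁ = -(α₁ * β₂ - α₂ * β₁) * t (z * a₁) := by
        rw [e₁, e₂]; ring
      rw [hdet, h21] at this
      simpa using this
    have hb' : β₂ = 0 := (mul_eq_zero.1 hb).resolve_right h11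
    have ha' : α₂ = 0 := (mul_eq_zero.1 ha).resolve_right h11
    apply h22
    rw [e₂, ha', hb']
    simp
  · have : (α₁ * β₂ - α₂ * β₁) * t s = 0 := by
      have : β₂ * f₁ s - β₁ * f₂ s = (α₁ * β₂ - α₂ * β₁) * t s := by
        rw [e₁, e₂]; ring
      rw [← this, h1, h2]
      simp
    exact (mul_eq_zero.1 this).resolve_left hdet

end TraceForms

section Morita

variable {F A : Type*} [Field F] [Ring A] [Algebra F A]
variable {K : Type*} [Fintype K]

/-- transfer of a linear form from `ι A ι` to `A` -/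
noncomputable def mor (ι : A) (x y : K → A) (G : A →ₗ[F] F) : A →ₗ[F] F :=
  ∑ k, G ∘ₗ LinearMap.mulLeft F (ι * y k) ∘ₗ LinearMap.mulRight F (x k * ι)

theorem mor_apply (ι : A) (x y : K → A) (G : A →ₗ[F] F) (a : A) :
    mor ι x y G a = ∑ k, G (ι * y k * a * (x k * ι)) := by
  simp [mor, LinearMap.sum_apply, mul_assoc]

theorem insert_one {ι : A} (hι : ι * ι = ι) {x y : K → A} (h1 : ∑ k, x k * ι * y k = 1)
    (u a b v : A) :
    u * (a * b) * v = ∑ l, (u * a * (x l * ι)) * (ι * y l * b * v) := by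
  calc u * (a * b) * v = u * a * (∑ l, x l * ι * y l) * (b * v) := by
        rw [h1, mul_one, mul_assoc, mul_assoc, mul_assoc]
    _ = ∑ l, (u * a * (x l * ι)) * (ι * y l * b * v) := by
        rw [Finset.mul_sum, Finset.sum_mul]
        refine Finset.sum_congr rfl fun l _ => ?_
        have : x l * ι * y l = x l * ι * (ι * y l) := by
          rw [mul_assoc (x l) ι (ι * y l), ← mul_assoc ι ι, hι, mul_assoc]
        rw [this]
        simp only [mul_assoc]

theorem mor_comm {ι : A} (hι : ι * ι = ι) {x y : K → A} (h1 : ∑ k, x k * ι * y k = 1)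
    (G : A →ₗ[F] F)
    (hG : ∀ u v, G ((ι * u * ι) * (ι * v * ι)) = G ((ι * v * ι) * (ι * u * ι))) (a b : A) :
    mor ι x y G (a * b) = mor ι x y G (b * a) := by
  rw [mor_apply, mor_apply]
  have e1 : ∀ (a b : A) (k : K), G (ι * y k * (a * b) * (x k * ι)) =
      ∑ l, G ((ι * (y k * a * x l) * ι) * (ι * (y l * b * x k) * ι)) := by
    intro a b k
    rw [insert_one hι h1, map_sum]
    refine Finset.sum_congr rfl fun l _ => ?_
    simp only [mul_assoc]
  simp_rw [e1]
  rw [Finset.sum_comm]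
  refine Finset.sum_congr rfl fun l _ => Finset.sum_congr rfl fun k _ => ?_
  rw [hG]

theorem mor_corner {ι : A} (hι : ι * ι = ι) {x y : K → A} (h1 : ∑ k, x k * ι * y k = 1)
    (G : A →ₗ[F] F)
    (hG : ∀ u v, G ((ι * u * ι) * (ι * v * ι)) = G ((ι * v * ι) * (ι * u * ι))) (w : A)
    (hw : ι * w * ι = w) : mor ι x y G w = G w := by
  rw [mor_apply]
  have hl : ι * w = w := by
    calc ι * w = ι * (ι * w * ι) := by rw [hw]
      _ = (ι * ι) * w * ι := by simp only [mul_assoc]
      _ = w := by rw [hι, hw]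
  have hr : w * ι = w := by
    calc w * ι = (ι * w * ι) * ι := by rw [hw]
      _ = ι * w * (ι * ι) := by simp only [mul_assoc]
      _ = w := by rw [hι, hw]
  have e1 : ∀ k, G (ι * y k * w * (x k * ι)) = G (w * (x k * ι * y k) * ι) := by
    intro k
    have h2 : ι * y k * w * (x k * ι) = (ι * y k * ι) * (ι * (w * x k) * ι) := by
      calc ι * y k * w * (x k * ι) = ι * y k * (ι * (ι * w)) * (x k * ι) := by rw [hl, hl]
        _ = _ := by simp only [mul_assoc]
    have h3 : (ι * (w * x k) * ι) * (ι * y k * ι) = w * (x k * ι * y k) * ι := by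
      calc (ι * (w * x k) * ι) * (ι * y k * ι) = (ι * w) * x k * (ι * ι) * y k * ι := by
            simp only [mul_assoc]
        _ = _ := by rw [hl, hι]; simp only [mul_assoc]
    rw [h2, hG, h3]
  simp_rw [e1]
  rw [← map_sum, ← Finset.sum_mul, ← Finset.mul_sum, h1, mul_one, hr]

end Morita

section Core

variable {F A : Type*} [Field F] [Ring A] [Algebra F A]

theorem isNilpotent_of_mem {J : Ideal A} (hJ : IsNilpotent J) {x : A} (hx : x ∈ J) :
    IsNilpotent x := by
  obtain ⟨N, hN⟩ := hJ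
  refine ⟨N, ?_⟩
  have := Ideal.pow_mem_pow hx N
  rw [hN] at this
  simpa using this

theorem sum_single_diag {n : ℕ} (c : F) :
    ∑ k : Fin n, Matrix.single k k c = (c • (1 : Matrix (Fin n) (Fin n) F)) := by
  apply Matrix.ext
  intro i j
  rw [Matrix.sum_apply]
  simp only [Matrix.single_apply, Matrix.smul_apply, Matrix.one_apply, smul_eq_mul]
  by_cases hij : i = j
  · subst hij
    simp
  · rw [if_neg hij, mul_zero]
    refine Finset.sum_eq_zero fun k _ => if_neg ?_
    rintro ⟨hk, hk'⟩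
    exact hij (hk.symm.trans hk')

/-- a primitive idempotent together with a resolution of the identity -/
theorem exists_resolution {n : ℕ} [NeZero n] (π : A →ₐ[F] Matrix (Fin n) (Fin n) F)
    (hπ : Function.Surjective π) (J : Ideal A) (hJ : IsNilpotent J)
    (hker : ∀ a, π a = 0 ↔ a ∈ J) :
    ∃ (ι : A) (x y : Fin n → A), ι * ι = ι ∧ π ι = Matrix.single 0 0 1 ∧
      ∑ k, x k * ι * y k = 1 := by
  have hnil : ∀ a ∈ RingHom.ker (π : A →+* Matrix (Fin n) (Fin n) F), IsNilpotent a := by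
    intro a ha
    exact isNilpotent_of_mem hJ ((hker a).1 ha)
  obtain ⟨ι, hι, hπι⟩ := exists_isIdempotentElem_eq_of_ker_isNilpotent
    (π : A →+* Matrix (Fin n) (Fin n) F) hnil (Matrix.single 0 0 1)
    (by obtain ⟨a, ha⟩ := hπ (Matrix.single 0 0 1); exact ⟨a, ha⟩)
    (by simp [IsIdempotentElem])
  have hπι' : π ι = Matrix.single 0 0 1 := hπι
  choose x hx using fun k : Fin n => hπ (Matrix.single k 0 1)
  choose y hy using fun k : Fin n => hπ (Matrix.single 0 k 1)
  have hu : π (∑ k, x k * ι * y k) = 1 := by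
    rw [map_sum]
    simp_rw [map_mul, hx, hy, hπι']
    simp only [Matrix.single_mul_single_same, mul_one]
    rw [sum_single_diag, one_smul]
  have hu' : IsUnit (∑ k, x k * ι * y k) := by
    have h1 : (∑ k, x k * ι * y k) - 1 ∈ J := by
      rw [← hker, map_sub, hu, map_one, sub_self]
    have := (isNilpotent_of_mem hJ h1).isUnit_one_add
    rwa [add_sub_cancel] at this
  obtain ⟨v, hv⟩ := hu'.exists_left_inv
  refine ⟨ι, fun k => v * x k, y, hι, hπι', ?_⟩
  rw [← hv, Finset.mul_sum]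
  refine Finset.sum_congr rfl fun k _ => ?_
  simp only [mul_assoc]

/-- the radical of the corner algebra `ι A ι` -/
def cornerRad (F : Type*) {A : Type*} [Field F] [Ring A] [Algebra F A] (J : Ideal A) (ι : A) :
    Submodule F A where
  carrier := {a | a ∈ J ∧ ι * a * ι = a}
  add_mem' := by
    rintro a b ⟨ha, ha'⟩ ⟨hb, hb'⟩
    exact ⟨J.add_mem ha hb, by rw [mul_add, add_mul, ha', hb']⟩
  zero_mem' := ⟨J.zero_mem, by simp⟩
  smul_mem' := by
    rintro c a ⟨ha, ha'⟩
    exact ⟨Submodule.smul_of_tower_mem J c ha, by rw [mul_smul_comm, smul_mul_assoc, ha']⟩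

theorem mem_cornerRad {J : Ideal A} {ι a : A} :
    a ∈ cornerRad F J ι ↔ a ∈ J ∧ ι * a * ι = a := Iff.rfl

theorem corner_mem {J : Ideal A} [J.IsTwoSided] {ι : A} (hι : ι * ι = ι) {a : A} (ha : a ∈ J) :
    ι * a * ι ∈ cornerRad F J ι := by
  refine ⟨J.mul_mem_right _ (J.mul_mem_left _ ha), ?_⟩
  calc ι * (ι * a * ι) * ι = (ι * ι) * a * (ι * ι) := by simp only [mul_assoc]
    _ = _ := by rw [hι]

theorem cornerRad_left {J : Ideal A} {ι : A} (hι : ι * ι = ι) {a : A}
    (ha : a ∈ cornerRad F J ι) : ι * a = a := by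
  calc ι * a = ι * (ι * a * ι) := by rw [ha.2]
    _ = (ι * ι) * a * ι := by simp only [mul_assoc]
    _ = a := by rw [hι, ha.2]

theorem cornerRad_right {J : Ideal A} {ι : A} (hι : ι * ι = ι) {a : A}
    (ha : a ∈ cornerRad F J ι) : a * ι = a := by
  calc a * ι = (ι * a * ι) * ι := by rw [ha.2]
    _ = ι * a * (ι * ι) := by simp only [mul_assoc]
    _ = a := by rw [hι, ha.2]

theorem cornerRad_not_le {J : Ideal A} (hJ : IsNilpotent J) {ι : A}
    (h0 : cornerRad F J ι ≠ ⊥) : ¬ cornerRad F J ι ≤ cornerRad F J ι * cornerRad F J ι := by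
  intro h
  apply h0
  have hk : ∀ k : ℕ, cornerRad F J ι ≤ (J ^ k).restrictScalars F := by
    intro k
    induction k with
    | zero =>
      intro a _
      rw [Submodule.restrictScalars_mem, Submodule.pow_zero, Ideal.one_eq_top]
      trivial
    | succ k ih =>
      refine h.trans ?_
      rw [Submodule.mul_le]
      intro a ha b hb
      rw [Submodule.restrictScalars_mem, Submodule.pow_succ]
      exact Ideal.mul_mem_mul (ih ha) hb.1
  obtain ⟨N, hN⟩ := hJ
  rw [eq_bot_iff]
  intro a ha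
  have := hk N ha
  rw [hN] at this
  simpa using this

theorem sq_zero [FiniteDimensional F A] (t : A →ₗ[F] F) (ht : ∀ x y, t (x * y) = t (y * x))
    (hnd : ∀ x, (∀ y, t (x * y) = 0) → x = 0) (z : A) (hz0 : z ≠ 0)
    (hspan : ∀ c : A, (∀ x, c * x = x * c) → ∃ α β : F, c = α • 1 + β • z)
    {n : ℕ} [NeZero n] (π : A →ₐ[F] Matrix (Fin n) (Fin n) F)
    (hπ : Function.Surjective π) (J : Ideal A) [J.IsTwoSided] (hJ : IsNilpotent J)
    (hker : ∀ a, π a = 0 ↔ a ∈ J) (hzJ : z ∈ J) :
    ∀ j ∈ J, ∀ j' ∈ J, j * j' = 0 := by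
  obtain ⟨ι, x, y, hι, hπι, h1⟩ := exists_resolution π hπ J hJ hker
  have hm0 : cornerRad F J ι ≠ ⊥ := by
    intro h
    apply hz0
    have e : z = ∑ k, ∑ l, x k * (ι * (y k * z * x l) * ι) * y l := by
      calc z = (∑ k, x k * ι * y k) * z * (∑ l, x l * ι * y l) := by rw [h1, one_mul, mul_one]
        _ = _ := by
          rw [Finset.sum_mul, Finset.sum_mul]
          refine Finset.sum_congr rfl fun k _ => ?_
          rw [Finset.mul_sum]
          refine Finset.sum_congr rfl fun l _ => ?_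
          simp only [mul_assoc]
    rw [e]
    refine Finset.sum_eq_zero fun k _ => Finset.sum_eq_zero fun l _ => ?_
    have : ι * (y k * z * x l) * ι ∈ cornerRad F J ι :=
      corner_mem hι (J.mul_mem_right _ (J.mul_mem_left _ hzJ))
    rw [h, Submodule.mem_bot] at this
    rw [this, mul_zero, zero_mul]
  obtain ⟨m0, hm0m, hm0'⟩ := SetLike.not_le_iff_exists.1 (cornerRad_not_le hJ hm0)
  obtain ⟨G, hG0, hGker⟩ := Submodule.exists_le_ker_of_notMem hm0'
  have hGmm : ∀ a ∈ cornerRad F J ι, ∀ b ∈ cornerRad F J ι, G (a * b) = 0 :=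
    fun a ha b hb => hGker (Submodule.mul_mem_mul ha hb)
  have hdec : ∀ u, ∃ c : F, ∃ u' ∈ cornerRad F J ι, ι * u * ι = c • ι + u' := by
    intro u
    refine ⟨π u 0 0, ι * u * ι - π u 0 0 • ι, ⟨?_, ?_⟩, by abel⟩
    · rw [← hker, map_sub, map_mul, map_mul, map_smul, hπι, Matrix.single_mul_mul_single,
        Matrix.smul_single]
      simp
    · rw [mul_sub, sub_mul, mul_smul_comm, smul_mul_assoc, hι, hι]
      congr 1
      calc ι * (ι * u * ι) * ι = (ι * ι) * u * (ι * ι) := by simp only [mul_assoc]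
        _ = _ := by rw [hι]
  have hG : ∀ u v, G ((ι * u * ι) * (ι * v * ι)) = G ((ι * v * ι) * (ι * u * ι)) := by
    intro u v
    obtain ⟨c, u', hu', eu⟩ := hdec u
    obtain ⟨d, v', hv', ev⟩ := hdec v
    rw [eu, ev]
    simp only [add_mul, mul_add, smul_mul_assoc, mul_smul_comm, hι, cornerRad_left hι hu',
      cornerRad_left hι hv', cornerRad_right hι hu', cornerRad_right hι hv', map_add, map_smul,
      hGmm u' hu' v' hv', hGmm v' hv' u' hu', smul_eq_mul]
    ring
  have key : ∀ s, mor ι x y G s = 0 →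
      ((Matrix.traceLinearMap (Fin n) F F) ∘ₗ π.toLinearMap) s = 0 → t s = 0 := by
    refine det_arg t ht hnd z hspan _ _ (mor_comm hι h1 G hG) ?_ m0 ι ?_ ?_ ?_
    · intro a b
      simp only [LinearMap.comp_apply, AlgHom.toLinearMap_apply, map_mul,
        Matrix.traceLinearMap_apply]
      exact Matrix.trace_mul_comm _ _
    · rw [mor_corner hι h1 G hG m0 hm0m.2]
      exact hG0
    · simp only [LinearMap.comp_apply, AlgHom.toLinearMap_apply, (hker m0).2 hm0m.1, map_zero]
    · simp only [LinearMap.comp_apply, AlgHom.toLinearMap_apply, hπι,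
        Matrix.traceLinearMap_apply, Matrix.trace_single_eq_same]
      exact one_ne_zero
  intro j hj j' hj'
  apply hnd
  intro w
  rw [mul_assoc]
  have hj'w : j' * w ∈ J := J.mul_mem_right _ hj'
  apply key
  · rw [mor_apply]
    refine Finset.sum_eq_zero fun k _ => ?_
    rw [insert_one hι h1, map_sum]
    refine Finset.sum_eq_zero fun l _ => ?_
    have e1 : ι * y k * j * (x l * ι) = ι * (y k * j * x l) * ι := by simp only [mul_assoc]
    have e2 : ι * y l * (j' * w) * (x k * ι) = ι * (y l * (j' * w) * x k) * ι := by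
      simp only [mul_assoc]
    rw [e1, e2]
    exact hGmm _ (corner_mem hι (J.mul_mem_right _ (J.mul_mem_left _ hj))) _
      (corner_mem hι (J.mul_mem_right _ (J.mul_mem_left _ hj'w)))
  · have : π (j * (j' * w)) = 0 := (hker _).2 (J.mul_mem_left _ hj'w)
    simp only [LinearMap.comp_apply, AlgHom.toLinearMap_apply, this, map_zero]

theorem core [FiniteDimensional F A] (t : A →ₗ[F] F) (ht : ∀ x y, t (x * y) = t (y * x))
    (hnd : ∀ x, (∀ y, t (x * y) = 0) → x = 0) (z : A) (hzc : ∀ x, z * x = x * z) (hz0 : z ≠ 0)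
    {n : ℕ} (π : A →ₐ[F] Matrix (Fin n) (Fin n) F)
    (hπ : Function.Surjective π) (J : Ideal A)
    (hker : ∀ a, π a = 0 ↔ a ∈ J) (hzJ : z ∈ J) (hsq : ∀ j ∈ J, ∀ j' ∈ J, j * j' = 0) :
    finrank F A ≤ 2 * finrank F (LinearMap.range (LinearMap.mulLeft F z)) := by
  have hkerz : LinearMap.ker (LinearMap.mulLeft F z) ≤ J.restrictScalars F := by
    intro a ha
    rw [LinearMap.mem_ker, LinearMap.mulLeft_apply] at ha
    rw [Submodule.restrictScalars_mem, ← hker]
    by_contra hne
    obtain ⟨r, s, hrs⟩ : ∃ r s, π a r s ≠ 0 := by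
      by_contra h
      push Not at h
      exact hne (Matrix.ext h)
    choose p hp using fun k : Fin n => hπ (Matrix.single k r 1)
    choose q hq using fun k : Fin n => hπ (Matrix.single s k 1)
    have hw : π (∑ k, p k * a * q k) = π a r s • 1 := by
      rw [map_sum]
      simp_rw [map_mul, hp, hq, Matrix.single_mul_mul_single, one_mul, mul_one]
      exact sum_single_diag _
    have hwJ : (∑ k, p k * a * q k) - π a r s • 1 ∈ J := by
      rw [← hker, map_sub, hw, map_smul, map_one, sub_self]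
    have h0 : z * (∑ k, p k * a * q k) = 0 := by
      rw [Finset.mul_sum]
      refine Finset.sum_eq_zero fun k _ => ?_
      rw [← mul_assoc, ← mul_assoc, hzc (p k), mul_assoc (p k), ha, mul_zero, zero_mul]
    have h1 := hsq z hzJ _ hwJ
    rw [mul_sub, h0, zero_sub, neg_eq_zero, mul_smul_comm, mul_one] at h1
    exact hz0 ((smul_eq_zero.1 h1).resolve_left hrs)
  let B : LinearMap.BilinForm F A := (LinearMap.mul F A).compr₂ t
  have hBa : ∀ a b, B a b = t (a * b) := fun a b => rfl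
  have hB : B.Nondegenerate := by
    refine ⟨fun a ha => hnd a fun b => ?_, fun a ha => hnd a fun b => ?_⟩
    · rw [← hBa, ha]
    · rw [ht, ← hBa, ha]
  have hJo : J.restrictScalars F ≤ B.orthogonal (J.restrictScalars F) := by
    intro a ha
    rw [LinearMap.BilinForm.mem_orthogonal_iff]
    intro b hb
    rw [hBa, hsq b hb a ha, map_zero]
  have h1 := Submodule.finrank_mono hJo
  rw [LinearMap.BilinForm.finrank_orthogonal hB] at h1
  have h2 := Submodule.finrank_mono hkerz
  have h3 := LinearMap.finrank_range_add_finrank_ker (LinearMap.mulLeft F z)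
  omega

end Core

section Main

variable {F A : Type*} [Field F] [IsAlgClosed F] [Ring A] [Algebra F A] [FiniteDimensional F A]

theorem central_nilpotent_mem_jacobson {z : A} (hzc : ∀ x, z * x = x * z)
    (hzn : IsNilpotent z) : z ∈ Ring.jacobson A := by
  rw [← Ideal.jacobson_bot, Ideal.mem_jacobson_iff]
  intro y
  have hn : IsNilpotent (y * z) :=
    (show Commute y z from (hzc y).symm).isNilpotent_mul_left hzn
  obtain ⟨w, hw⟩ := hn.isUnit_add_one.exists_left_inv
  refine ⟨w, ?_⟩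
  rw [Ideal.mem_bot, sub_eq_zero, ← hw, mul_add, mul_one, mul_assoc]

theorem brandt_abstract
    (t : A →ₗ[F] F) (ht : ∀ x y, t (x * y) = t (y * x)) (hnd : ∀ x, (∀ y, t (x * y) = 0) → x = 0)
    (z : A) (hzc : ∀ x, z * x = x * z) (hz0 : z ≠ 0) (hzn : IsNilpotent z)
    (hspan : ∀ c : A, (∀ x, c * x = x * c) → ∃ α β : F, c = α • 1 + β • z) :
    finrank F A ≤ 2 * finrank F (LinearMap.range (LinearMap.mulLeft F z)) := by
  have hart : IsArtinianRing A := IsArtinianRing.of_finite F A
  have hJ : IsNilpotent (Ring.jacobson A) := IsSemiprimaryRing.isNilpotent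
  have hzJ : z ∈ Ring.jacobson A := central_nilpotent_mem_jacobson hzc hzn
  obtain ⟨m, d, hd, ⟨e⟩⟩ :=
    IsSemisimpleRing.exists_algEquiv_pi_matrix_of_isAlgClosed F (A ⧸ Ring.jacobson A)
  let π : A →ₐ[F] (Π i, Matrix (Fin (d i)) (Fin (d i)) F) :=
    (e : (A ⧸ Ring.jacobson A) →ₐ[F] _).comp (Ideal.Quotient.mkₐ F (Ring.jacobson A))
  have hπ : Function.Surjective π :=
    e.surjective.comp (Ideal.Quotient.mkₐ_surjective F (Ring.jacobson A))
  have hker : ∀ a, π a = 0 ↔ a ∈ Ring.jacobson A := by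
    intro a
    have : π a = e (Ideal.Quotient.mk _ a) := rfl
    rw [this, map_eq_zero_iff e e.injective, Ideal.Quotient.eq_zero_iff_mem]
  -- the trace forms attached to the simple components
  let τ : Fin m → (A →ₗ[F] F) := fun i =>
    (Matrix.traceLinearMap (Fin (d i)) F F) ∘ₗ
      (LinearMap.proj (R := F) (φ := fun i => Matrix (Fin (d i)) (Fin (d i)) F) i) ∘ₗ
        π.toLinearMap
  have hτa : ∀ i a, τ i a = Matrix.trace (π a i) := fun i a => rfl
  have hτc : ∀ i a b, τ i (a * b) = τ i (b * a) := by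
    intro i a b
    rw [hτa, hτa, map_mul, map_mul, Pi.mul_apply, Pi.mul_apply]
    exact Matrix.trace_mul_comm _ _
  have hunit : ∀ i, ∃ a, τ i a = 1 ∧ ∀ j, j ≠ i → τ j a = 0 := by
    intro i
    have := hd i
    obtain ⟨a, ha⟩ := hπ (Pi.single i (Matrix.single 0 0 1))
    refine ⟨a, ?_, fun j hj => ?_⟩
    · rw [hτa, ha, Pi.single_eq_same, Matrix.trace_single_eq_same]
    · rw [hτa, ha, Pi.single_eq_of_ne hj, Matrix.trace_zero]
  have hone : ∀ i j : Fin m, i = j := by
    intro i j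
    by_contra hij
    obtain ⟨a₁, h11, h1⟩ := hunit i
    obtain ⟨a₂, h22, h2⟩ := hunit j
    apply hz0
    apply hnd
    intro y
    have hzy : π (z * y) = 0 := (hker _).2 ((Ring.jacobson A).mul_mem_right _ hzJ)
    refine det_arg t ht hnd z hspan (τ i) (τ j) (hτc i) (hτc j) a₁ a₂ (by rw [h11]; exact one_ne_zero)
      (h1 j (Ne.symm hij)) (by rw [h22]; exact one_ne_zero) _ ?_ ?_
    · rw [hτa, hzy, Pi.zero_apply, Matrix.trace_zero]
    · rw [hτa, hzy, Pi.zero_apply, Matrix.trace_zero]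
  have hne : Nonempty (Fin m) := by
    by_contra h
    rw [not_nonempty_iff] at h
    apply hz0
    have h1 : (1 : A) ∈ Ring.jacobson A := by
      rw [← hker]
      exact Subsingleton.elim _ _
    obtain ⟨N, hN⟩ := isNilpotent_of_mem hJ h1
    rw [one_pow] at hN
    rw [← mul_one z, hN, mul_zero]
  obtain ⟨i₀⟩ := hne
  have := hd i₀
  let π₀ : A →ₐ[F] Matrix (Fin (d i₀)) (Fin (d i₀)) F :=
    (Pi.evalAlgHom F (fun i => Matrix (Fin (d i)) (Fin (d i)) F) i₀).comp π
  have hπ₀a : ∀ a, π₀ a = π a i₀ := fun a => rfl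
  have hπ₀ : Function.Surjective π₀ := by
    intro M
    obtain ⟨a, ha⟩ := hπ (Pi.single i₀ M)
    exact ⟨a, by rw [hπ₀a, ha, Pi.single_eq_same]⟩
  have hker₀ : ∀ a, π₀ a = 0 ↔ a ∈ Ring.jacobson A := by
    intro a
    rw [← hker, hπ₀a]
    constructor
    · intro h
      funext i
      obtain rfl := hone i₀ i
      exact h
    · intro h
      rw [h, Pi.zero_apply]
  exact core t ht hnd z hzc hz0 π₀ hπ₀ _ hker₀ hzJ
    (sq_zero t ht hnd z hz0 hspan π₀ hπ₀ _ hJ hker₀ hzJ)

end Main

end Cfsg.Agent.Lib.Helper29.Brandt
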