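import Mathlib

/-! DC ladder (helper6), rung DIH: a group generated by two involutions `a`, `b` with
`(a * b) ^ m = 1` has at most `2 * m` elements. -/

namespace Cfsg.Agent.Lib.Helper29.DC

theorem dih {G : Type*} [Group G] (a b : G) (m : ℕ) (hm : 0 < m) (ha : a ^ 2 = 1) (hb : b ^ 2 = 1)
    (hab : (a * b) ^ m = 1) :
    Finite (Subgroup.closure ({a, b} : Set G)) ∧
      Nat.card (Subgroup.closure ({a, b} : Set G)) ≤ 2 * m := by
  have haa : a * a = 1 := by rw [← sq]; exact ha
  have hbb : b * b = 1 := by rw [← sq]; exact hb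
  have hainv : a⁻¹ = a := inv_eq_of_mul_eq_one_left haa
  have hbinv : b⁻¹ = b := inv_eq_of_mul_eq_one_left hbb
  -- `a` inverts `c = a * b`
  have hconj : a * (a * b) * a⁻¹ = (a * b)⁻¹ := by
    rw [mul_inv_rev, hainv, hbinv, ← mul_assoc, haa, one_mul]
  have hconjz : ∀ i : ℤ, a * (a * b) ^ i = (a * b) ^ (-i) * a := by
    intro i
    have h1 : a * (a * b) ^ i * a⁻¹ = ((a * b)⁻¹) ^ i := by
      rw [← hconj, conj_zpow]
    rw [inv_zpow', ] at h1
    rw [← h1]
    group
  have hQ : ∀ g ∈ Subgroup.closure ({a, b} : Set G),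
      ∃ (i : ℤ) (ε : Bool), g = (a * b) ^ i * (cond ε a 1) := by
    have hamul : ∀ y : G, (∃ (i : ℤ) (ε : Bool), y = (a * b) ^ i * (cond ε a 1)) →
        ∃ (i : ℤ) (ε : Bool), a * y = (a * b) ^ i * (cond ε a 1) := by
      rintro y ⟨i, ε, rfl⟩
      refine ⟨-i, !ε, ?_⟩
      rw [← mul_assoc, hconjz]
      cases ε
      · simp
      · simp [mul_assoc, haa]
    have hbmul : ∀ y : G, (∃ (i : ℤ) (ε : Bool), y = (a * b) ^ i * (cond ε a 1)) →
        ∃ (i : ℤ) (ε : Bool), b * y = (a * b) ^ i * (cond ε a 1) := by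
      rintro y ⟨i, ε, rfl⟩
      have hb' : b = a * (a * b) := by rw [← mul_assoc, haa, one_mul]
      have : b * ((a * b) ^ i * (cond ε a 1)) = a * ((a * b) ^ (1 + i) * (cond ε a 1)) := by
        rw [zpow_add, zpow_one]
        have h2 : a * ((a * b) * (a * b) ^ i * (cond ε a 1))
            = (a * (a * b)) * ((a * b) ^ i * (cond ε a 1)) := by
          simp only [mul_assoc]
        rw [h2, ← hb']
      rw [this]
      exact hamul _ ⟨1 + i, ε, rfl⟩
    intro g hg
    induction hg using Subgroup.closure_induction_left with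
    | one => exact ⟨0, false, by simp⟩
    | mul_left x hx y _ ih =>
      rcases hx with rfl | hx
      · exact hamul y ih
      · rw [Set.mem_singleton_iff] at hx
        subst hx
        exact hbmul y ih
    | inv_mul_cancel x hx y _ ih =>
      rcases hx with rfl | hx
      · rw [hainv]; exact hamul y ih
      · rw [Set.mem_singleton_iff] at hx
        subst hx
        rw [hbinv]; exact hbmul y ih
  let f : Fin m × Bool → G := fun t => (a * b) ^ (t.1 : ℕ) * (cond t.2 a 1)
  have hsub : ((Subgroup.closure ({a, b} : Set G) : Subgroup G) : Set G) ⊆ Set.range f := by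
    intro g hg
    obtain ⟨i, ε, rfl⟩ := hQ g hg
    have hm' : (m : ℤ) ≠ 0 := by exact_mod_cast hm.ne'
    have h0 : 0 ≤ i % (m : ℤ) := Int.emod_nonneg _ hm'
    have h1 : i % (m : ℤ) < m := Int.emod_lt_of_pos _ (by exact_mod_cast hm)
    refine ⟨(⟨(i % (m : ℤ)).toNat, by omega⟩, ε), ?_⟩
    simp only [f]
    congr 1
    rw [← zpow_natCast, Int.toNat_of_nonneg h0]
    exact (zpow_eq_zpow_emod i (by rw [zpow_natCast]; exact hab)).symm
  have hfin : ((Subgroup.closure ({a, b} : Set G) : Subgroup G) : Set G).Finite :=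
    (Set.finite_range f).subset hsub
  refine ⟨hfin, ?_⟩
  calc Nat.card (Subgroup.closure ({a, b} : Set G))
      = ((Subgroup.closure ({a, b} : Set G) : Subgroup G) : Set G).ncard := rfl
    _ ≤ (Set.range f).ncard := Set.ncard_le_ncard hsub (Set.finite_range f)
    _ = (f '' Set.univ).ncard := by rw [Set.image_univ]
    _ ≤ (Set.univ : Set (Fin m × Bool)).ncard := Set.ncard_image_le Set.finite_univ
    _ = 2 * m := by
      rw [Set.ncard_univ, Nat.card_prod, Nat.card_eq_fintype_card, Nat.card_eq_fintype_card,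
        Fintype.card_fin, Fintype.card_bool, mul_comm]

end Cfsg.Agent.Lib.Helper29.DC
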