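import Mathlib
import Cfsg.Agent.S0051
import Cfsg.Agent.Lib.Helper29.DCDih

/-! DC ladder (helper6), rung ASM. -/

namespace Cfsg.Agent.Lib.Helper29.DC

theorem asm {H K : Type*} [Group H] [Finite H] [Group K] [Finite K] (φ : H →* K)
    (hφ : Function.Surjective φ) (hker : φ.ker = Subgroup.center H)
    (hZ : Nat.card (Subgroup.center H) = 2)
    (hconj : ∀ s t : K, orderOf s = 2 → orderOf t = 2 → IsConj s t)
    (a b : K) (k : ℕ) (ha : orderOf a = 2) (hb : orderOf b = 2) (hab : orderOf ((a * b) ^ k) = 2)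
    (hcard : Nat.card (Subgroup.closure ({a, b} : Set K)) = 4 * k)
    (hodd : ¬ 2 ∣ (Subgroup.closure ({a, b} : Set K)).index)
    (x : H) (hx : orderOf x = 2) (hxZ : x ∉ Subgroup.center H) :
    ∃ L : Subgroup H, (Subgroup.center H).IsComplement' L := by
  have hx2 : x ^ 2 = 1 := by rw [← hx]; exact pow_orderOf_eq_one x
  have hφx : orderOf (φ x) = 2 := by
    have : Fact (Nat.Prime 2) := ⟨Nat.prime_two⟩
    refine orderOf_eq_prime (by rw [← map_pow, hx2, map_one]) ?_
    intro h1
    exact hxZ (hker ▸ (MonoidHom.mem_ker.2 h1))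
  -- every lift of an involution is an involution
  have hlift : ∀ t : K, orderOf t = 2 → ∀ y : H, φ y = t → y ^ 2 = 1 := by
    intro t ht y hy
    obtain ⟨c, hc⟩ := isConj_iff.1 (hconj (φ x) t hφx ht)
    obtain ⟨g, rfl⟩ := hφ c
    have hzker : (g * x * g⁻¹)⁻¹ * y ∈ φ.ker := by
      rw [MonoidHom.mem_ker, map_mul, map_inv, hy, ← hc, map_mul, map_mul, map_inv]
      group
    have hzc : (g * x * g⁻¹)⁻¹ * y ∈ Subgroup.center H := hker ▸ hzker
    have hz2 : ((g * x * g⁻¹)⁻¹ * y) ^ 2 = 1 := by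
      have := pow_card_eq_one' (G := Subgroup.center H) (x := ⟨_, hzc⟩)
      rw [hZ] at this
      exact congrArg Subtype.val this
    have hy' : y = (g * x * g⁻¹) * ((g * x * g⁻¹)⁻¹ * y) := by group
    have hcomm : Commute (g * x * g⁻¹) ((g * x * g⁻¹)⁻¹ * y) :=
      ((Subgroup.mem_center_iff.1 hzc) _)
    rw [hy', hcomm.mul_pow, hz2, mul_one, conj_pow, hx2]
    simp
  obtain ⟨a', rfl⟩ := hφ a
  obtain ⟨b', rfl⟩ := hφ b
  have ha2 : a' ^ 2 = 1 := hlift _ ha a' rfl
  have hb2 : b' ^ 2 = 1 := hlift _ hb b' rfl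
  have hab2 : (a' * b') ^ (2 * k) = 1 := by
    have := hlift _ hab ((a' * b') ^ k) (by simp)
    rw [← pow_mul, mul_comm] at this
    exact this
  have hk : 0 < k := by
    rcases Nat.eq_zero_or_pos k with rfl | h
    · simp at hab
    · exact h
  obtain ⟨-, hDcard⟩ := dih a' b' (2 * k) (by omega) ha2 hb2 hab2
  set D : Subgroup H := Subgroup.closure ({a', b'} : Set H) with hD
  have hmap : D.map φ = Subgroup.closure ({φ a', φ b'} : Set K) := by
    rw [hD, MonoidHom.map_closure, Set.image_pair]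
  have hbij : Function.Bijective (φ.subgroupMap D) := by
    refine (φ.subgroupMap_surjective D).bijective_of_nat_card_le ?_
    rw [hmap, hcard]
    omega
  have hDZ : D ⊓ Subgroup.center H = ⊥ := by
    rw [eq_bot_iff]
    intro y hy
    obtain ⟨hyD, hyZ⟩ := Subgroup.mem_inf.1 hy
    rw [← hker, MonoidHom.mem_ker] at hyZ
    have : (φ.subgroupMap D) ⟨y, hyD⟩ = (φ.subgroupMap D) 1 := by
      apply Subtype.ext
      simpa using hyZ
    have h2 := hbij.1 this
    rw [Subgroup.mem_bot]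
    exact congrArg Subtype.val h2
  have hU : Subgroup.center H ⊔ D = (Subgroup.closure ({φ a', φ b'} : Set K)).comap φ := by
    rw [← hmap, Subgroup.comap_map_eq, hker, sup_comm]
  have hidx : (Subgroup.center H ⊔ D).index = (Subgroup.closure ({φ a', φ b'} : Set K)).index := by
    rw [hU, Subgroup.index_comap_of_surjective _ hφ]
  refine Cfsg.Agent.S0051.result (Subgroup.center H) (Subgroup.center H ⊔ D) le_sup_left ?_ D
    le_sup_right hDZ rfl
  rw [hZ, hidx]
  exact (Nat.Prime.coprime_iff_not_dvd Nat.prime_two).2 hodd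

end Cfsg.Agent.Lib.Helper29.DC
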