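import Mathlib

/-! DC ladder (helper6), rung EVEN: induction principle for even permutations. -/

namespace Cfsg.Agent.Lib.Helper29.DC

theorem even_list {n : ℕ} (P : Equiv.Perm (Fin n) → Prop) (h1 : P 1)
    (hstep : ∀ (i j k l : Fin n) (σ : Equiv.Perm (Fin n)), i ≠ j → k ≠ l → P σ →
      P (Equiv.swap i j * Equiv.swap k l * σ))
    (σ : Equiv.Perm (Fin n)) (hσ : σ ∈ alternatingGroup (Fin n)) : P σ := by
  have key : ∀ (k : ℕ) (l : List (Equiv.Perm (Fin n))), l.length = 2 * k →
      (∀ g ∈ l, g.IsSwap) → P l.prod := by
    intro k
    induction k with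
    | zero =>
      intro l hl _
      have : l = [] := List.length_eq_zero_iff.1 (by simpa using hl)
      subst this
      simpa using h1
    | succ k ih =>
      intro l hl hs
      match l, hl, hs with
      | [], hl, _ => simp at hl
      | [_], hl, _ => simp at hl; omega
      | x :: y :: t, hl, hs =>
        obtain ⟨i, j, hij, rfl⟩ := hs x (by simp)
        obtain ⟨k', l', hkl, rfl⟩ := hs y (by simp)
        have ht : t.length = 2 * k := by
          simp only [List.length_cons] at hl
          omega
        have := hstep i j k' l' t.prod hij hkl (ih t ht (fun g hg => hs g (by simp [hg])))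
        simpa [mul_assoc] using this
  obtain ⟨l, hl, hs⟩ := Equiv.Perm.swapFactors σ
  have hsign : Equiv.Perm.sign σ = 1 := Equiv.Perm.mem_alternatingGroup.1 hσ
  rw [← hl, Equiv.Perm.sign_prod_list_swap hs] at hsign
  have heven : Even l.length := by
    by_contra hodd
    rw [Nat.not_even_iff_odd] at hodd
    rw [hodd.neg_one_pow] at hsign
    exact absurd hsign (by decide)
  obtain ⟨k, hk⟩ := heven
  rw [← hl]
  exact key k l (by omega) hs

end Cfsg.Agent.Lib.Helper29.DC
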