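import Mathlib

/-! DC ladder (helper6), rung MODEL: anticommuting matrices over `ZMod 3` with scalar commutant. -/

namespace Cfsg.Agent.Lib.Helper29.DC

open Matrix

section blocks

variable {ι : Type} [Fintype ι] [DecidableEq ι]

/-- `diag (m, -m)` -/
def mD (m : Matrix ι ι (ZMod 3)) : Matrix (ι ⊕ ι) (ι ⊕ ι) (ZMod 3) := fromBlocks m 0 0 (-m)

/-- the swap block matrix -/
def mX : Matrix (ι ⊕ ι) (ι ⊕ ι) (ZMod 3) := fromBlocks 0 1 1 0

/-- the symplectic block matrix -/
def mJ : Matrix (ι ⊕ ι) (ι ⊕ ι) (ZMod 3) := fromBlocks 0 (-1) 1 0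

theorem mD_mul (m m' : Matrix ι ι (ZMod 3)) : mD m * mD m' = fromBlocks (m * m') 0 0 (m * m') := by
  simp [mD, fromBlocks_multiply]

theorem mX_mul_mX : (mX : Matrix (ι ⊕ ι) (ι ⊕ ι) (ZMod 3)) * mX = 1 := by
  simp [mX, fromBlocks_multiply]

theorem mD_mul_mX (m : Matrix ι ι (ZMod 3)) : mD m * mX = - (mX * mD m) := by
  simp [mD, mX, fromBlocks_multiply, fromBlocks_neg]

theorem mX_mul_mD (m : Matrix ι ι (ZMod 3)) : mX * mD m = - (mD m * mX) := by
  rw [mD_mul_mX, neg_neg]

theorem mD_mul_mJ (m : Matrix ι ι (ZMod 3)) : mD m * mJ = - (mJ * mD m) := by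
  simp [mD, mJ, fromBlocks_multiply, fromBlocks_neg]

theorem mX_mul_mJ : (mX : Matrix (ι ⊕ ι) (ι ⊕ ι) (ZMod 3)) * mJ = - (mJ * mX) := by
  simp [mX, mJ, fromBlocks_multiply, fromBlocks_neg]

theorem mD_anti {m m' : Matrix ι ι (ZMod 3)} (h : m * m' = - (m' * m)) :
    mD m * mD m' = - (mD m' * mD m) := by
  rw [mD_mul, mD_mul, h, fromBlocks_neg]
  simp

theorem two_eq_zero_aux {B : Matrix ι ι (ZMod 3)} (h : B = -B) : B = 0 := by
  ext i j
  have h1 : B i j = - B i j := by
    conv_lhs => rw [h]
    rfl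
  have key : ∀ x : ZMod 3, x = -x → x = 0 := by decide
  simpa using key _ h1

end blocks

theorem model (n : ℕ) : ∃ (ι : Type) (_ : Fintype ι) (_ : DecidableEq ι) (_ : Nonempty ι)
    (a b : ℕ → Matrix ι ι (ZMod 3)),
    (∀ i < n, a i * a i = 1) ∧ (∀ i < n, ∀ j < n, i ≠ j → a i * a j = - (a j * a i)) ∧
    (∀ i < n, ∀ j < n, a i * b j = - (b j * a i)) ∧
    (∀ u : Matrix ι ι (ZMod 3), (∀ i < n, u * a i = a i * u) → (∀ i < n, u * b i = b i * u) →
      ∃ c : ZMod 3, u = c • (1 : Matrix ι ι (ZMod 3))) := by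
  induction n with
  | zero =>
    refine ⟨Unit, inferInstance, inferInstance, inferInstance, fun _ => 0, fun _ => 0,
      by simp, by simp, by simp, fun u _ _ => ⟨u () (), ?_⟩⟩
    ext i j
    simp
  | succ n ih =>
    obtain ⟨ι, hF, hD, hN, a, b, h1, h2, h3, h4⟩ := ih
    refine ⟨ι ⊕ ι, inferInstance, inferInstance, inferInstance,
      fun i => if i < n then mD (a i) else mX, fun i => if i < n then mD (b i) else mJ,
      ?_, ?_, ?_, ?_⟩
    · intro i _
      by_cases hi : i < n
      · simp only [hi, if_true]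
        rw [mD_mul, h1 i hi, fromBlocks_one]
      · simp only [hi, if_false]
        exact mX_mul_mX
    · intro i hi' j hj' hij
      by_cases hi : i < n <;> by_cases hj : j < n
      · simp only [hi, hj, if_true]
        exact mD_anti (h2 i hi j hj hij)
      · simp only [hi, hj, if_true, if_false]
        exact mD_mul_mX _
      · simp only [hi, hj, if_true, if_false]
        exact mX_mul_mD _
      · omega
    · intro i hi' j hj'
      by_cases hi : i < n <;> by_cases hj : j < n
      · simp only [hi, hj, if_true]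
        exact mD_anti (h3 i hi j hj)
      · simp only [hi, hj, if_true, if_false]
        exact mD_mul_mJ _
      · simp only [hi, hj, if_true, if_false]
        exact mX_mul_mD _
      · simp only [hi, hj, if_false]
        exact mX_mul_mJ
    · intro u hua hub
      obtain ⟨A, B, C, D, rfl⟩ : ∃ A B C D, u = fromBlocks A B C D :=
        ⟨_, _, _, _, (fromBlocks_toBlocks u).symm⟩
      have hX := hua n (Nat.lt_succ_self n)
      have hJ := hub n (Nat.lt_succ_self n)
      simp only [lt_irrefl, if_false, mX, mJ, fromBlocks_multiply] at hX hJ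
      simp only [mul_zero, mul_one, zero_add, add_zero, zero_mul, one_mul, mul_neg, neg_mul,
        fromBlocks_inj] at hX hJ
      obtain ⟨hBC, hAD, -, -⟩ := hX
      obtain ⟨hBC', -, -, -⟩ := hJ
      have hB0 : B = 0 := two_eq_zero_aux (by rw [← hBC] at hBC'; exact hBC')
      have hC0 : C = 0 := by rw [← hBC, hB0]
      subst hB0 hC0 hAD
      obtain ⟨c, hc⟩ := h4 A
        (fun i hi => by
          have := hua i (Nat.lt_succ_of_lt hi)
          simp only [hi, if_true, mD, fromBlocks_multiply] at this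
          simp only [mul_zero, zero_add, add_zero, zero_mul, fromBlocks_inj] at this
          exact this.1)
        (fun i hi => by
          have := hub i (Nat.lt_succ_of_lt hi)
          simp only [hi, if_true, mD, fromBlocks_multiply] at this
          simp only [mul_zero, zero_add, add_zero, zero_mul, fromBlocks_inj] at this
          exact this.1)
      refine ⟨c, ?_⟩
      rw [hc, ← fromBlocks_one, fromBlocks_smul]
      simp

end Cfsg.Agent.Lib.Helper29.DC
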