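import Mathlib
import Cfsg.Agent.Lib.Helper29.Knorr1
import Cfsg.Agent.Lib.Helper80.GANil
import Cfsg.Agent.Lib.Helper80.GALocal
import Cfsg.Agent.Lib.Helper80.GASat

set_option autoImplicit false
set_option linter.unusedSectionVars false

namespace Cfsg.Agent.Lib.Helper29

open scoped BigOperators
open Cfsg.Agent.Lib.Helper80

namespace Kn

open GA

section grp
variable {G : Type*} [Group G] [Finite G] {p : ℕ} [Fact p.Prime]

/-- normalizers grow in `p`-groups -/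
theorem exists_mem_Nn_not_mem {D T : Subgroup G} (hT : IsPGroup p T) (hDT : D ≤ T) (hne : D ≠ T) :
    ∃ t ∈ T, t ∈ Nn D ∧ t ∉ D := by
  have _ : Group.IsNilpotent T := hT.isNilpotent
  have hlt : D.subgroupOf T < ⊤ := by
    rw [lt_top_iff_ne_top]
    intro h
    apply hne
    exact le_antisymm hDT (Subgroup.subgroupOf_eq_top.1 h)
  have hnc := Group.normalizerCondition_of_isNilpotent (G := T) _ hlt
  obtain ⟨t, ht1, ht2⟩ := SetLike.exists_of_lt hnc
  refine ⟨t, t.2, ?_, fun h => ht2 (Subgroup.mem_subgroupOf.2 h)⟩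
  rw [Subgroup.mem_normalizer_iff] at ht1 ⊢
  intro h
  constructor
  · intro hh
    have := (ht1 ⟨h, hDT hh⟩).1 (Subgroup.mem_subgroupOf.2 hh)
    simpa [Subgroup.mem_subgroupOf] using this
  · intro hh
    have hhT : h ∈ T := by
      have h1 := T.mul_mem (T.mul_mem (T.inv_mem t.2) (hDT hh)) t.2
      simpa [mul_assoc] using h1
    have := (ht1 ⟨h, hhT⟩).2 (by simpa [Subgroup.mem_subgroupOf] using hh)
    simpa [Subgroup.mem_subgroupOf] using this

end grp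

variable {k : Type*} {G : Type*} [Field k] [Group G] [Fintype G]
variable {p : ℕ} [Fact p.Prime]

theorem eq_of_le_of_card_le {A B : Subgroup G} (h : A ≤ B) (hc : Nat.card B ≤ Nat.card A) :
    A = B := Subgroup.eq_of_le_of_card_ge h hc

/-- Sylow-type fusion lemma: two elements of `C(D)` conjugate in `X` are conjugate in `N_X(D)`
provided that `D` is a maximal `p`-subgroup of the centraliser in `N_X(D)` of one of them. -/
theorem fusion_lemma {X D : Subgroup G} (hDX : D ≤ X) (hD : IsPGroup p D) {g g2 x : G}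
    (hx : x ∈ X) (hg : g ∈ Cn D) (hg2 : g2 ∈ Cn D) (hconj : g2 = x * g * x⁻¹)
    (hmax : ∀ S : Subgroup G, S ≤ X ⊓ Nn D → IsPGroup p S → (∀ s ∈ S, s * g2 = g2 * s) → S ≤ D) :
    ∃ y ∈ X ⊓ Nn D, g2 = y * g * y⁻¹ := by
  obtain ⟨C, hC⟩ : ∃ C, C = X ⊓ Subgroup.centralizer ({g2} : Set G) := ⟨_, rfl⟩
  have hmemC : ∀ c, c ∈ C ↔ c ∈ X ∧ c * g2 = g2 * c := by
    intro c
    rw [hC, Subgroup.mem_inf, Subgroup.mem_centralizer_singleton_iff]
  have hDC : D ≤ C := fun u hu => (hmemC u).2 ⟨hDX hu, mem_Cn.1 hg2 u hu⟩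
  have hxDC : cS x D ≤ C := by
    intro u hu
    have hu' := mem_cS.1 hu
    refine (hmemC u).2 ⟨?_, ?_⟩
    · have := X.mul_mem (X.mul_mem hx (hDX hu')) (X.inv_mem hx)
      simpa [mul_assoc] using this
    · have h1 := mem_Cn.1 hg _ hu'
      rw [hconj]
      have h2 : x * (x⁻¹ * u * x * g) * x⁻¹ = x * (g * (x⁻¹ * u * x)) * x⁻¹ := by rw [h1]
      simpa [mul_assoc] using h2
  obtain ⟨T, hTC, hT, hTsyl⟩ := exists_sylow_in (p := p) C
  obtain ⟨c1, hc1, hD1⟩ := hTsyl D hDC hD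
  obtain ⟨c2, hc2, hD2⟩ := hTsyl (cS x D) hxDC (hD.map _)
  have hT1 : IsPGroup p (cS c1 T) := hT.map _
  have hT1C : cS c1 T ≤ C := cS_le_of_mem hc1 hTC
  have hDeq : D = cS c1 T := by
    by_contra hne
    obtain ⟨t, ht1, ht2, ht3⟩ := exists_mem_Nn_not_mem hT1 hD1 hne
    apply ht3
    have hS : cS c1 T ⊓ Nn D ≤ D := by
      apply hmax
      · intro s hs
        exact ⟨((hmemC s).1 (hT1C hs.1)).1, hs.2⟩
      · exact hT1.to_le inf_le_left
      · intro s hs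
        exact ((hmemC s).1 (hT1C hs.1)).2
    exact hS ⟨ht1, ht2⟩
  have hxeq : cS x D = cS c2 T := by
    apply eq_of_le_of_card_le hD2
    rw [card_cS, card_cS, hDeq, card_cS]
  have hTeq : T = cS c1⁻¹ D := by
    rw [hDeq, cS_cS, inv_mul_cancel, cS_one]
  refine ⟨c1 * c2⁻¹ * x, ⟨?_, ?_⟩, ?_⟩
  · exact X.mul_mem (X.mul_mem ((hmemC c1).1 hc1).1 (X.inv_mem ((hmemC c2).1 hc2).1)) hx
  · apply mem_Nn_of_cS_eq
    rw [← cS_cS, hxeq, ← cS_cS, cS_cS c2⁻¹, inv_mul_cancel, cS_one, ← hDeq]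
  · have e1 := ((hmemC c1).1 hc1).2
    have e2 := ((hmemC c2).1 hc2).2
    have e3 : c2⁻¹ * g2 * c2 = g2 := by rw [mul_assoc, ← e2, inv_mul_cancel_left]
    have e4 : c1 * g2 * c1⁻¹ = g2 := by rw [e1, mul_inv_cancel_right]
    calc g2 = c1 * (c2⁻¹ * g2 * c2) * c1⁻¹ := by rw [e3, e4]
      _ = c1 * c2⁻¹ * x * g * (c1 * c2⁻¹ * x)⁻¹ := by
        rw [hconj]; simp only [mul_inv_rev, inv_inv, mul_assoc]

/-- under the maximality hypothesis, `D` is a Sylow `p`-subgroup of `C_X(g2)` -/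
theorem sylow_of_max {X D : Subgroup G} (hDX : D ≤ X) (hD : IsPGroup p D) {g2 : G}
    (hg2 : g2 ∈ Cn D)
    (hmax : ∀ S : Subgroup G, S ≤ X ⊓ Nn D → IsPGroup p S → (∀ s ∈ S, s * g2 = g2 * s) → S ≤ D)
    (S : Subgroup G) (hSX : S ≤ X) (hS : IsPGroup p S) (hSg : ∀ s ∈ S, s * g2 = g2 * s) :
    ∃ c ∈ X, S ≤ cS c D := by
  obtain ⟨C, hC⟩ : ∃ C, C = X ⊓ Subgroup.centralizer ({g2} : Set G) := ⟨_, rfl⟩
  have hmemC : ∀ c, c ∈ C ↔ c ∈ X ∧ c * g2 = g2 * c := by
    intro c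
    rw [hC, Subgroup.mem_inf, Subgroup.mem_centralizer_singleton_iff]
  have hDC : D ≤ C := fun u hu => (hmemC u).2 ⟨hDX hu, mem_Cn.1 hg2 u hu⟩
  have hSC : S ≤ C := fun u hu => (hmemC u).2 ⟨hSX hu, hSg u hu⟩
  obtain ⟨T, hTC, hT, hTsyl⟩ := exists_sylow_in (p := p) C
  obtain ⟨c1, hc1, hD1⟩ := hTsyl D hDC hD
  obtain ⟨c2, hc2, hD2⟩ := hTsyl S hSC hS
  have hT1 : IsPGroup p (cS c1 T) := hT.map _
  have hT1C : cS c1 T ≤ C := cS_le_of_mem hc1 hTC
  have hDeq : D = cS c1 T := by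
    by_contra hne
    obtain ⟨t, ht1, ht2, ht3⟩ := exists_mem_Nn_not_mem hT1 hD1 hne
    apply ht3
    have hS : cS c1 T ⊓ Nn D ≤ D := by
      apply hmax
      · intro s hs
        exact ⟨((hmemC s).1 (hT1C hs.1)).1, hs.2⟩
      · exact hT1.to_le inf_le_left
      · intro s hs
        exact ((hmemC s).1 (hT1C hs.1)).2
    exact hS ⟨ht1, ht2⟩
  have hTeq : T = cS c1⁻¹ D := by
    rw [hDeq, cS_cS, inv_mul_cancel, cS_one]
  refine ⟨c2 * c1⁻¹, X.mul_mem ((hmemC c2).1 hc2).1 (X.inv_mem ((hmemC c1).1 hc1).1), ?_⟩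
  rw [← cS_cS, ← hTeq]
  exact hD2

theorem max_of_zd {X D : Subgroup G} {β : GA k G} (hzd : ZD p (X ⊓ Nn D) D β) {g2 : G}
    (hg2 : β g2 ≠ 0) (S : Subgroup G) (hS1 : S ≤ X ⊓ Nn D) (hS2 : IsPGroup p S)
    (hS3 : ∀ s ∈ S, s * g2 = g2 * s) : S ≤ D := by
  obtain ⟨x, hx, hle⟩ := hzd g2 hg2 S hS1 hS2 hS3
  rwa [cS_eq_self_of_mem_Nn hx.2] at hle

/-- **Lifting lemma**: the Brauer map sends the ideal of `Z(kX)` of elements of defect `≤ D` onto
the corresponding ideal of `Z(k N_X(D))`. -/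
theorem exists_lift_br {X D : Subgroup G} (hDX : D ≤ X) (hD : IsPGroup p D) {β : GA k G}
    (hβ : InZ (X ⊓ Nn D) β) (hsupp : SuppOn (Cn D) β) (hzd : ZD p (X ⊓ Nn D) D β) :
    ∃ z : GA k G, InZ X z ∧ ZD p X D z ∧ br D z = β := by
  classical
  let z : GA k G := fun g =>
    if h : ∃ x ∈ X, β (x * g * x⁻¹) ≠ 0 then β (h.choose * g * h.choose⁻¹) else 0
  have hCn : ∀ g, β g ≠ 0 → g ∈ Cn D := fun g hg => by
    by_contra hn
    exact hg (hsupp g hn)
  have key : ∀ g x, x ∈ X → β (x * g * x⁻¹) ≠ 0 → z g = β (x * g * x⁻¹) := by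
    intro g x hx hne
    have h : ∃ x ∈ X, β (x * g * x⁻¹) ≠ 0 := ⟨x, hx, hne⟩
    have hz : z g = β (h.choose * g * h.choose⁻¹) := dif_pos h
    obtain ⟨hx', hne'⟩ := h.choose_spec
    rw [hz]
    obtain ⟨y, hy, hyeq⟩ := fusion_lemma (p := p) hDX hD (x := x * h.choose⁻¹)
      (X.mul_mem hx (X.inv_mem hx')) (hCn _ hne') (hCn _ hne)
      (by simp only [mul_inv_rev, inv_inv, mul_assoc, inv_mul_cancel_left])
      (max_of_zd hzd hne)
    rw [hyeq, hβ.2.apply hy]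
  have key0 : ∀ g, (¬ ∃ x ∈ X, β (x * g * x⁻¹) ≠ 0) → z g = 0 := fun g h => dif_neg h
  refine ⟨z, ⟨?_, ?_⟩, ?_, ?_⟩
  · intro g hg
    apply key0
    rintro ⟨x, hx, hne⟩
    apply hne
    apply hβ.1
    intro h
    apply hg
    have := X.mul_mem (X.mul_mem (X.inv_mem hx) h.1) hx
    simpa [mul_assoc] using this
  · rw [fixBy_iff]
    intro u hu g
    by_cases h : ∃ x ∈ X, β (x * g * x⁻¹) ≠ 0
    · obtain ⟨x, hx, hne⟩ := h
      rw [key g x hx hne]
      have e : x * u⁻¹ * (u * g * u⁻¹) * (x * u⁻¹)⁻¹ = x * g * x⁻¹ := by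
        simp only [mul_inv_rev, inv_inv, mul_assoc, inv_mul_cancel_left]
      rw [key (u * g * u⁻¹) (x * u⁻¹) (X.mul_mem hx (X.inv_mem hu)) (by rw [e]; exact hne), e]
    · rw [key0 g h, key0]
      rintro ⟨x, hx, hne⟩
      apply h
      refine ⟨x * u, X.mul_mem hx hu, ?_⟩
      have e : x * u * g * (x * u)⁻¹ = x * (u * g * u⁻¹) * x⁻¹ := by
        simp only [mul_inv_rev, mul_assoc]
      rw [e]; exact hne
  · intro g hg S hSX hS hSg
    have h : ∃ x ∈ X, β (x * g * x⁻¹) ≠ 0 := by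
      by_contra hn
      exact hg (key0 g hn)
    obtain ⟨x, hx, hne⟩ := h
    obtain ⟨c, hc, hle⟩ := sylow_of_max (p := p) hDX hD (hCn _ hne) (max_of_zd hzd hne) (cS x S)
      (cS_le_of_mem hx hSX) (hS.map _) (by
        intro s hs
        have h1 := hSg _ (mem_cS.1 hs)
        have h2 : x * (x⁻¹ * s * x * g) * x⁻¹ = x * (g * (x⁻¹ * s * x)) * x⁻¹ := by rw [h1]
        simpa [mul_assoc] using h2)
    refine ⟨x⁻¹ * c, X.mul_mem (X.inv_mem hx) hc, ?_⟩
    have := cS_mono x⁻¹ hle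
    rwa [cS_cS, cS_cS, inv_mul_cancel, cS_one] at this
  · ext g
    by_cases hg : g ∈ Cn D
    · rw [br_apply_mem _ hg]
      by_cases hb : β g = 0
      · rw [hb]
        apply key0
        rintro ⟨x, hx, hne⟩
        obtain ⟨y, hy, hyeq⟩ := fusion_lemma (p := p) hDX hD hx hg (hCn _ hne) rfl
          (max_of_zd hzd hne)
        apply hne
        rw [hyeq, hβ.2.apply hy, hb]
      · have := key g 1 X.one_mem (by simpa using hb)
        simpa using this
    · rw [br_apply_not_mem _ hg, hsupp g hg]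

variable [CharP k p]

theorem isNilpotent_br {P : Subgroup G} (hP : IsPGroup p P) {a : GA k G} (ha : FixBy P a)
    (hn : IsNilpotent a) : IsNilpotent (br P a) := by
  obtain ⟨n, hn⟩ := hn
  exact ⟨n, by rw [← br_pow hP ha, hn, br_zero]⟩

theorem inZ_br_normalizer {X D : Subgroup G} {b : GA k G} (hb : InZ X b) :
    InZ (X ⊓ Nn D) (br D b) := by
  refine ⟨fun g hg => ?_, (hb.2.mono inf_le_left).br inf_le_right⟩
  by_cases hc : g ∈ Cn D
  · rw [br_apply_mem _ hc]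
    apply hb.1
    intro h
    exact hg ⟨h, Cn_le_Nn D hc⟩
  · exact br_apply_not_mem _ hc

/-- **Brauer's first main theorem** (algebraic form, relative to a subgroup `X`): the Brauer map
sends a block idempotent of `kX` with defect group `D` to a block idempotent of `k N_X(D)` with
defect group `D`. -/
theorem isBlk_br {X D : Subgroup G} {b : GA k G} (hb : IsBlk X b) (hD : IsDef p X b D) :
    IsBlk (X ⊓ Nn D) (br D b) ∧ IsDef p (X ⊓ Nn D) (br D b) D := by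
  have hDY : D ≤ X ⊓ Nn D := le_inf hD.le Subgroup.le_normalizer
  have hYN : X ⊓ Nn D ≤ Nn D := inf_le_right
  have hcZ : InZ (X ⊓ Nn D) (br D b) := inZ_br_normalizer hb.inZ
  have hcc : br D b * br D b = br D b := by
    rw [← br_mul hD.pgroup (hb.inZ.2.mono hD.le) (hb.inZ.2.mono hD.le), hb.idem]
  obtain ⟨β, hβ, hcβ⟩ := exists_blk_of_idem _ hcZ hcc hD.br_ne
  have hbrβ : br D β = β := br_eq_self_of_idem hD.pgroup hDY hYN hβ.inZ hβ.idem
  -- the defect group of `β`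
  have hβD : IsDef p (X ⊓ Nn D) β D := by
    obtain ⟨D', hD'⟩ := hβ.exists_isDef (p := p)
    obtain ⟨x, hx, hle⟩ := hD'.zd.le_conj_of_br_ne hDY hD.pgroup (by rw [hbrβ]; exact hβ.ne_zero)
    have hD'' := hD'.conj hβ.inZ.2 hx
    have h1 : br (cS x D') (br D b) ≠ 0 := by
      intro h0
      apply hD''.br_ne
      rw [← hcβ, br_mul hD''.pgroup (hcZ.2.mono hD''.le) (hβ.inZ.2.mono hD''.le), h0, zero_mul]
    rw [br_br hle] at h1
    obtain ⟨x', _, hle'⟩ := hD.zd.le_conj_of_br_ne (hD''.le.trans inf_le_left) hD''.pgroup h1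
    have : cS x D' = D := by
      symm
      apply eq_of_le_of_card_le hle
      calc Nat.card (cS x D') ≤ Nat.card (cS x' D) := Subgroup.card_le_of_le hle'
        _ = Nat.card D := card_cS _ _
    rwa [this] at hD''
  have hsupp : SuppOn (Cn D) β := by rw [← hbrβ]; exact br_suppOn D β
  obtain ⟨z, hz, _, hzβ⟩ := exists_lift_br hD.le hD.pgroup hβ.inZ hsupp hβD.zd
  have hβc : β * br D b = β := by rw [hβ.inZ.comm hcZ, hcβ]
  have heq : br D b = β := by
    rcases hb.nilpotent_or_unit hz with h | ⟨w, hw, hw2⟩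
    · exfalso
      apply hβ.not_nilpotent
      have := isNilpotent_br hD.pgroup ((hz.2.mul hb.inZ.2).mono hD.le) h
      rwa [br_mul hD.pgroup (hz.2.mono hD.le) (hb.inZ.2.mono hD.le), hzβ, hβc] at this
    · have h1 : br D b = β * br D (w * b) := by
        conv_lhs => rw [← hw2, mul_assoc]
        rw [br_mul hD.pgroup (hz.2.mono hD.le) ((hw.2.mul hb.inZ.2).mono hD.le), hzβ]
      calc br D b = β * br D (w * b) := h1
        _ = β * (β * br D (w * b)) := by rw [← mul_assoc, hβ.idem]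
        _ = β * br D b := by rw [← h1]
        _ = β := hβc
  rw [heq]
  exact ⟨hβ, hβD⟩

/-- the block of `G` corresponding to a block of `H ≥ N_G(D)` with defect group `D` has defect
group `D` -/
theorem isDef_of_br_mul_ne_zero {H D : Subgroup G} (hNH : Nn D ≤ H) {c E : GA k G}
    (hc : IsBlk H c) (hcD : IsDef p H c D) (hE : IsBlk ⊤ E) (hne : br D E * br D c ≠ 0) :
    IsDef p ⊤ E D := by
  obtain ⟨hβ, hβD⟩ := isBlk_br hc hcD
  rw [inf_eq_right.2 hNH] at hβ hβD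
  have hEZ : InZ (Nn D) (br D E) := by
    have := inZ_br_normalizer (D := D) hE.inZ
    rwa [top_inf_eq] at this
  have hEE : br D E * br D E = br D E := by
    rw [← br_mul hcD.pgroup (hE.inZ.2.mono le_top) (hE.inZ.2.mono le_top), hE.idem]
  have hEβ : br D E * br D c = br D c := by
    rcases hβ.prim _ hEZ hEE with h | h
    · exact absurd h hne
    · exact h
  obtain ⟨z, hz, hzd, hzβ⟩ := exists_lift_br (X := ⊤) le_top hcD.pgroup
    (by rw [top_inf_eq]; exact hβ.inZ) (br_suppOn D c) (by rw [top_inf_eq]; exact hβD.zd)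
  refine ⟨le_top, hcD.pgroup, ?_, fun h => hne (by rw [h, zero_mul])⟩
  rcases hE.nilpotent_or_unit hz with h | ⟨w, hw, hw2⟩
  · exfalso
    apply hβ.not_nilpotent
    have := isNilpotent_br hcD.pgroup ((hz.2.mul hE.inZ.2).mono le_top) h
    rwa [br_mul hcD.pgroup (hz.2.mono le_top) (hE.inZ.2.mono le_top), hzβ, hβ.inZ.comm hEZ,
      hEβ] at this
  · rw [← hw2, mul_assoc]
    exact hzd.mul hz.2 (hw.2.mul hE.inZ.2)

/-- uniqueness in the first main theorem over `H ≥ N_G(D)` -/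
theorem eq_of_br_mul_ne_zero {H D : Subgroup G} (hNH : Nn D ≤ H) {c₁ c₂ E : GA k G}
    (hc₁ : IsBlk H c₁) (hc₁D : IsDef p H c₁ D) (hc₂ : IsBlk H c₂) (hc₂D : IsDef p H c₂ D)
    (hE : IsBlk ⊤ E) (hne₁ : br D E * br D c₁ ≠ 0) (hne₂ : br D E * br D c₂ ≠ 0) : c₁ = c₂ := by
  have hED := isDef_of_br_mul_ne_zero hNH hc₁ hc₁D hE hne₁
  obtain ⟨hβE, _⟩ := isBlk_br hE hED
  obtain ⟨hβ₁, _⟩ := isBlk_br hc₁ hc₁D
  obtain ⟨hβ₂, _⟩ := isBlk_br hc₂ hc₂D
  rw [inf_eq_right.2 hNH] at hβ₁ hβ₂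
  rw [top_inf_eq] at hβE
  have e1 : br D E = br D c₁ := by
    rcases hβE.eq_or_orth hβ₁ with h | h
    · exact h
    · exact absurd h hne₁
  have e2 : br D E = br D c₂ := by
    rcases hβE.eq_or_orth hβ₂ with h | h
    · exact h
    · exact absurd h hne₂
  rcases hc₁.eq_or_orth hc₂ with h | h
  · exact h
  · exfalso
    apply hβ₁.ne_zero
    have h1 := congrArg (br D) h
    rw [br_mul hc₁D.pgroup (hc₁.inZ.2.mono hc₁D.le) (hc₂.inZ.2.mono hc₁D.le), br_zero, ← e2, e1,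
      hβ₁.idem] at h1
    exact h1

end Kn

end Cfsg.Agent.Lib.Helper29
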