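import Mathlib
import Cfsg.Agent.Lib.Helper27.Coprime
import Cfsg.Agent.Lib.Helper29.Baer

set_option autoImplicit false

namespace Cfsg.Agent.Lib.Helper29

open Subgroup
open scoped commutatorElement

variable {X : Type*} [Group X]

theorem comm_le_left_of_le_normalizer {K L : Subgroup X} (h : L ≤ normalizer (K : Set X)) :
    ⁅K, L⁆ ≤ K := by
  rw [commutator_le]
  intro k hk l hl
  rw [commutatorElement_def]
  have h1 : l * k⁻¹ * l⁻¹ ∈ K := (mem_normalizer_iff.mp (h hl) k⁻¹).mp (inv_mem hk)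
  have h2 : k * l * k⁻¹ * l⁻¹ = k * (l * k⁻¹ * l⁻¹) := by group
  rw [h2]; exact mul_mem hk h1

/-- The group of automorphisms of `R` induced by `K ≤ N(R)`. -/
def autOf (R K : Subgroup X) : Subgroup (MulAut R) :=
  (K.subgroupOf (normalizer (R : Set X))).map R.normalizerMonoidHom

theorem mem_autOf {R K : Subgroup X} {α : MulAut R} (h : α ∈ autOf R K) :
    ∃ k ∈ K, ∀ x : R, ((α x : R) : X) = k * x * k⁻¹ := by
  obtain ⟨n, hn, rfl⟩ := h
  exact ⟨n, hn, fun x => rfl⟩

theorem exists_autOf {R K : Subgroup X} (hKR : K ≤ normalizer (R : Set X)) {k : X} (hk : k ∈ K) :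
    ∃ α ∈ autOf R K, ∀ x : R, ((α x : R) : X) = k * x * k⁻¹ :=
  ⟨R.normalizerMonoidHom ⟨k, hKR hk⟩, ⟨⟨k, hKR hk⟩, hk, rfl⟩, fun _ => rfl⟩

theorem card_autOf_dvd [Finite X] {R K : Subgroup X} (hKR : K ≤ normalizer (R : Set X)) :
    Nat.card (autOf R K) ∣ Nat.card K := by
  have h := card_map_dvd (K.subgroupOf (normalizer (R : Set X))) R.normalizerMonoidHom
  rwa [Nat.card_congr (subgroupOfEquivOfLe hKR).toEquiv] at h

theorem isPGroup_autOf {p : ℕ} {R E : Subgroup X} (hE : IsPGroup p E) : IsPGroup p (autOf R E) :=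
  (hE.comap_subtype).map _

theorem autOf_le_normalizer {R K E : Subgroup X} (hEK : E ≤ normalizer (K : Set X)) :
    autOf R E ≤ normalizer (autOf R K : Set (MulAut R)) := by
  refine (map_mono ?_).trans (le_normalizer_map _)
  intro n hn
  rw [mem_normalizer_iff]
  intro m
  rw [mem_subgroupOf, mem_subgroupOf]
  exact mem_normalizer_iff.1 (hEK hn) m

/-- **Generalized `A × B` lemma for odd `p`.**  `K` a `p'`-group normalized by the `p`-group `E`,
both acting on the `p`-group `R`.  If `K` centralizes every element of order dividing `p` of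
`C_R(E)`, then `K` centralizes `R`. -/
theorem gen_AxB [Finite X] {p : ℕ} [Fact p.Prime] (hp : p ≠ 2) {K E : Subgroup X}
    (hK : (Nat.card K).Coprime p) (hE : IsPGroup p E) (hEK : E ≤ normalizer (K : Set X)) :
    ∀ R : Subgroup X, IsPGroup p R → K ≤ normalizer (R : Set X) → E ≤ normalizer (R : Set X) →
      (∀ x ∈ R, x ^ p = 1 → x ∈ centralizer (E : Set X) → x ∈ centralizer (K : Set X)) →
      ⁅R, K⁆ = ⊥ := by
  intro R
  induction' hn : Nat.card R using Nat.strong_induction_on with n ih generalizing R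
  intro hR hKR hER hfix
  by_cases hne : R = ⊥
  · rw [hne]; exact commutator_bot_left K
  have IH : ∀ R1 : Subgroup X, R1 < R → K ≤ normalizer (R1 : Set X) →
      E ≤ normalizer (R1 : Set X) → ⁅R1, K⁆ = ⊥ := by
    intro R1 hlt h1 h2
    exact ih _ (hn ▸ Cfsg.Agent.Lib.Helper27.card_lt_of_lt hlt) R1 rfl (hR.to_le hlt.le) h1 h2
      (fun x hx => hfix x (hlt.le hx))
  have hle : ⁅R, K⁆ ≤ R := comm_le_left_of_le_normalizer hKR
  rcases hle.lt_or_eq with hlt | heq
  · apply Cfsg.Agent.Lib.Helper27.comm_eq_bot_of_coprime hR hK hKR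
    exact IH _ hlt (Cfsg.Agent.Lib.Helper27.le_normalizer_comm hKR le_normalizer)
      (Cfsg.Agent.Lib.Helper27.le_normalizer_comm hER hEK)
  -- now `R = [R,K]`
  have hD : ⁅R, R⁆ < R :=
    lt_of_le_of_ne (comm_le_left_of_le_normalizer le_normalizer)
      (Cfsg.Agent.Lib.Helper27.comm_ne_self_of_pgroup hR hR le_normalizer hne)
  have hDK : ⁅⁅R, R⁆, K⁆ = ⊥ := IH _ hD (Cfsg.Agent.Lib.Helper27.le_normalizer_comm hKR hKR)
      (Cfsg.Agent.Lib.Helper27.le_normalizer_comm hER hER)
  have hRD : ⁅R, ⁅R, R⁆⁆ = ⊥ := by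
    nth_rw 1 [← heq]
    apply commutator_commutator_eq_bot_of_rotate
    · rw [commutator_comm K, hDK]; exact commutator_bot_left R
    · rw [eq_bot_iff, ← hDK]
      exact commutator_mono (comm_le_left_of_le_normalizer
        (Cfsg.Agent.Lib.Helper27.le_normalizer_comm le_normalizer le_normalizer)) le_rfl
  have hc : ∀ x y z : R, ⁅x, y⁆ * z = z * ⁅x, y⁆ := by
    intro x y z
    have h1 : ⁅(z : X), ⁅(x : X), (y : X)⁆⁆ ∈ ⁅R, ⁅R, R⁆⁆ :=
      commutator_mem_commutator z.2 (commutator_mem_commutator x.2 y.2)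
    rw [hRD, mem_bot, commutatorElement_eq_one_iff_mul_comm] at h1
    apply Subtype.ext
    exact h1.symm
  have key := class2_fixed hp hR hc (autOf R K) (autOf R E)
    (Nat.Coprime.coprime_dvd_left (card_autOf_dvd hKR) hK) (isPGroup_autOf hE)
    (autOf_le_normalizer hEK) (by
      intro u hu hEu k hk
      obtain ⟨k0, hk0, hk1⟩ := mem_autOf hk
      apply Subtype.ext
      rw [hk1]
      have h1 : (u : X) ∈ centralizer (K : Set X) := by
        apply hfix u u.2 (by exact_mod_cast congrArg Subtype.val hu)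
        rw [mem_centralizer_iff]
        intro e he
        obtain ⟨α, hα, hα1⟩ := exists_autOf hER he
        have h2 := hα1 u
        rw [hEu α hα] at h2
        exact mul_inv_eq_iff_eq_mul.1 h2.symm
      rw [mem_centralizer_iff] at h1
      rw [h1 k0 hk0, mul_inv_cancel_right])
  rw [eq_bot_iff, commutator_le]
  intro u hu k hk
  obtain ⟨α, hα, hα1⟩ := exists_autOf hKR hk
  have h2 := hα1 ⟨u, hu⟩
  rw [key α hα] at h2
  rw [mem_bot, commutatorElement_eq_one_iff_mul_comm]
  change u = k * u * k⁻¹ at h2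
  exact (mul_inv_eq_iff_eq_mul.1 h2.symm).symm

end Cfsg.Agent.Lib.Helper29
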