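import Mathlib
import Cfsg.Agent.Lib.Helper29.FirstMainGA
import Cfsg.Agent.Lib.Helper80.GARel

set_option autoImplicit false
set_option linter.unusedSectionVars false

namespace Cfsg.Agent.Lib.Helper29

open scoped BigOperators
open Cfsg.Agent.Lib.Helper80

namespace Kn

open GA

variable {k : Type*} {G : Type*} [Field k] [Group G] [Fintype G]
variable {p : ℕ} [Fact p.Prime] [CharP k p]

/-- General form of the key step of Knörr's theorem: a nonzero idempotent `f` of `(kG)^N b`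
has `Br_Q(f) ≠ 0` whenever `Br_Q(b) ≠ 0`. -/
theorem br_ne_zero_of_idem {N : Subgroup G} [N.Normal] {b f : GA k G} {Q : Subgroup G}
    (hb : IsBlk N b) (hfN : FixBy N f) (hff : f * f = f) (hfb : f * b = f) (hQN : Q ≤ N)
    (hQ : IsPGroup p Q) (hbr : br Q b ≠ 0) (hf0 : f ≠ 0) : br Q f ≠ 0 := by
  classical
  intro hbrf
  apply hf0
  have _ : Fintype (G ⧸ N) := Fintype.ofFinite _
  let I : G ⧸ N → Set (fixRing k N) :=
    fun γ => {x | SuppC N γ x.1 ∧ x.1 * b = x.1 ∧ br Q x.1 = 0}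
  let F : G ⧸ N → fixRing k N := fun γ => ⟨comp N γ f, comp_fixBy γ hfN⟩
  have hmul : ∀ γ δ x y, x ∈ I γ → y ∈ I δ → x * y ∈ I (γ * δ) := by
    intro γ δ x y hx hy
    refine ⟨hx.1.mul hy.1, ?_, ?_⟩
    · show x.1 * y.1 * b = x.1 * y.1
      rw [mul_assoc, hy.2.1]
    · show br Q (x.1 * y.1) = 0
      rw [br_mul hQ (FixBy.mono hQN x.2) (FixBy.mono hQN y.2), hx.2.2, zero_mul]
  have h1 : ∀ x ∈ I 1, x ∈ Ideal.jacobson (⊥ : Ideal (fixRing k N)) := by
    intro x hx
    have hxZ : InZ N x.1 := ⟨suppC_one_iff.1 hx.1, x.2⟩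
    have hnil : IsNilpotent x.1 := by
      rcases hb.nilpotent_or_unit hxZ with h | ⟨w, hw, hw2⟩
      · rwa [hx.2.1] at h
      · exfalso
        apply hbr
        rw [← hw2, mul_assoc, br_mul hQ (FixBy.mono hQN x.2)
          ((hw.2.mul hb.inZ.2).mono hQN), hx.2.2, zero_mul]
    apply mem_jacobson_of_central_nilpotent
    · obtain ⟨n, hn⟩ := hnil
      exact ⟨n, Subtype.ext (by simpa using hn)⟩
    · intro y
      apply Subtype.ext
      show y.1 * x.1 = x.1 * y.1
      exact (commute_of_suppOn_fixBy hxZ.1 y.2).symm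
  have hF : ∀ γ, F γ ∈ I γ := by
    intro γ
    refine ⟨comp_suppC _ _ _, ?_, ?_⟩
    · show comp N γ f * b = comp N γ f
      rw [← comp_mul_of_suppOn γ _ hb.inZ.1, hfb]
    · show br Q (comp N γ f) = 0
      rw [br_comp, hbrf, comp_zero]
  have hsum : ∑ γ, F γ = ⟨f, hfN⟩ := by
    apply Subtype.ext
    rw [AddSubmonoidClass.coe_finsetSum]
    exact sum_comp N f
  have hpow := graded_pow_mem _ I hmul h1 F hF
  rw [hsum] at hpow
  have hidem : (⟨f, hfN⟩ : fixRing k N) * ⟨f, hfN⟩ = ⟨f, hfN⟩ := Subtype.ext hff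
  have hpw : ∀ m : ℕ, (⟨f, hfN⟩ : fixRing k N) ^ (m + 1) = ⟨f, hfN⟩ := by
    intro m
    induction m with
    | zero => simp
    | succ m ih => rw [pow_succ, ih, hidem]
  rw [hpw] at hpow
  have := idem_eq_zero_of_mem_jacobson hidem hpow
  exact congrArg Subtype.val this

/-- `Br_Q(e b) ≠ 0` for a central idempotent `e` of `kG` with `e b ≠ 0`. -/
theorem br_mul_ne_zero {N : Subgroup G} [N.Normal] {b e : GA k G} {Q : Subgroup G}
    (hb : IsBlk N b) (he : FixBy ⊤ e) (hee : e * e = e) (hQN : Q ≤ N) (hQ : IsPGroup p Q)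
    (hbr : br Q b ≠ 0) (heb : e * b ≠ 0) : br Q e * br Q b ≠ 0 := by
  have heN : FixBy N e := he.mono le_top
  have hcomm : e * b = b * e := (commute_of_suppOn_fixBy hb.inZ.1 heN).symm
  have hff : (e * b) * (e * b) = e * b := by
    calc (e * b) * (e * b) = e * (b * e) * b := by simp only [mul_assoc]
      _ = e * (e * b) * b := by rw [hcomm]
      _ = (e * e) * (b * b) := by simp only [mul_assoc]
      _ = e * b := by rw [hee, hb.idem]
  have := br_ne_zero_of_idem hb (heN.mul hb.inZ.2) hff (by rw [mul_assoc, hb.idem]) hQN hQ hbr heb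
  rwa [br_mul hQ (heN.mono hQN) (hb.inZ.2.mono hQN)] at this

/-- transport of algebraic defect groups between `k H` and `k G` -/
theorem isDef_up_iff (H : Subgroup G) [Fintype H] (L' D' : Subgroup H) (b : GA k H) :
    IsDef p (up H L') (emb H b) (up H D') ↔ IsDef p L' b D' := by
  constructor
  · intro h
    refine ⟨(up_le_up H).1 h.le, (isPGroup_up H).1 h.pgroup, ?_, ?_⟩
    · intro g hg S hSL hS hSg
      obtain ⟨x, hx, hle⟩ := h.zd (g : G) (by rw [emb_coe]; exact hg) (up H S)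
        ((up_le_up H).2 hSL) ((isPGroup_up H).2 hS) (by
          rintro _ ⟨s, hs, rfl⟩
          have := congrArg (fun t : H => (t : G)) (hSg s hs)
          simpa using this)
      obtain ⟨hxH, hxL⟩ := (mem_up H).1 hx
      refine ⟨⟨x, hxH⟩, hxL, ?_⟩
      rw [← up_le_up H, up_cS]
      exact hle
    · intro h0
      apply h.br_ne
      rw [← emb_br, h0, emb_zero]
  · intro h
    refine ⟨(up_le_up H).2 h.le, (isPGroup_up H).2 h.pgroup, ?_, ?_⟩
    · intro g hg S hSL hS hSg
      have hgH : g ∈ H := by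
        by_contra hn; exact hg (emb_apply_not_mem H b hn)
      rw [emb_apply_mem H b hgH] at hg
      have hSH : S ≤ H := hSL.trans (up_le H L')
      obtain ⟨x, hx, hle⟩ := h.zd ⟨g, hgH⟩ hg (S.subgroupOf H)
        (by rw [← up_le_up H, up_subgroupOf H hSH]; exact hSL)
        (hS.comap_of_injective H.subtype H.subtype_injective)
        (fun s hs => Subtype.ext (hSg s (Subgroup.mem_subgroupOf.1 hs)))
      refine ⟨x, (coe_mem_up H).2 hx, ?_⟩
      rw [← up_cS, ← up_subgroupOf H hSH]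
      exact (up_le_up H).2 hle
    · rw [← emb_br]
      intro h0
      exact h.br_ne ((emb_eq_zero_iff H _).1 h0)

/-- **Knörr's theorem**, relative version: `L ⊴ H ≤ G`. -/
theorem knorr_rel {H L Q : Subgroup G} (hLH : L ≤ H) (hHL : H ≤ Nn L) {c e : GA k G}
    (hc : IsBlk H c) (he : IsBlk L e) (hQ : IsDef p L e Q) (hce : c * e ≠ 0) :
    ∃ P, IsDef p H c P ∧ P ⊓ L = Q := by
  have _ : Fintype H := Fintype.ofFinite H
  obtain ⟨c', hc', rfl⟩ := exists_of_isBlk H hc
  have heH : emb H (rst H e) = e := emb_rst H (he.inZ.1.mono hLH)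
  have hQH : Q ≤ H := hQ.le.trans hLH
  have _ : (L.subgroupOf H).Normal := (Subgroup.normal_subgroupOf_iff_le_normalizer hLH).2 hHL
  have he' : IsBlk (L.subgroupOf H) (rst H e) := by
    rw [← isBlk_up_iff H, up_subgroupOf H hLH, heH]; exact he
  have hQ' : IsDef p (L.subgroupOf H) (rst H e) (Q.subgroupOf H) := by
    rw [← isDef_up_iff H, up_subgroupOf H hLH, up_subgroupOf H hQH, heH]; exact hQ
  have hce' : c' * rst H e ≠ 0 := by
    intro h0
    apply hce
    rw [← heH, ← emb_mul, h0, emb_zero]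
  obtain ⟨P', hP', hPL⟩ := knorr he' hc' hQ' hce'
  refine ⟨up H P', ?_, ?_⟩
  · have := (isDef_up_iff H ⊤ P' c').2 hP'
    rwa [up_top] at this
  · have h1 : up H (P' ⊓ L.subgroupOf H) = up H P' ⊓ up H (L.subgroupOf H) :=
      Subgroup.map_inf _ _ _ H.subtype_injective
    rw [up_subgroupOf H hLH] at h1
    rw [← h1, hPL, up_subgroupOf H hQH]

end Kn

end Cfsg.Agent.Lib.Helper29
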