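import Mathlib
import Cfsg.Agent.Lib.Helper29.KnorrRel

set_option autoImplicit false
set_option linter.unusedSectionVars false

namespace Cfsg.Agent.Lib.Helper29

open scoped BigOperators
open Cfsg.Agent.Lib.Helper80

namespace Kn

open GA

variable {k : Type*} {G : Type*} [Field k] [Group G] [Fintype G]
variable {p : ℕ} [Fact p.Prime] [CharP k p]

/-- the Brauer correspondent of `d` in `N_N(Q)` is `Br_Q(d)` -/
theorem br_eq_of_mul_ne_zero {N Q : Subgroup G} {d e : GA k G} (hd : IsBlk N d)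
    (hdQ : IsDef p N d Q) (he : IsBlk (Nn Q ⊓ N) e) (hde : br Q d * e ≠ 0) : br Q d = e := by
  obtain ⟨h1, _⟩ := isBlk_br hd hdQ
  rw [inf_comm] at h1
  rcases h1.eq_or_orth he with h | h
  · exact h
  · exact absurd h hde

theorem inZ_br_top {Q : Subgroup G} {E : GA k G} (hE : InZ ⊤ E) : InZ (Nn Q) (br Q E) := by
  have := inZ_br_normalizer (D := Q) hE
  rwa [top_inf_eq] at this

theorem Nn_le_Nn_inf_normal (N : Subgroup G) [N.Normal] (Q : Subgroup G) :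
    Nn Q ≤ Nn (Nn Q ⊓ N) := by
  intro x hx
  apply mem_Nn_of_cS_eq
  rw [cS_inf, cS_normal N, cS_Nn, cS_eq_self_of_mem_Nn hx]

/-- Harris–Knörr, part (b): the block of `G` corresponding to a block of `N_G(Q)` covering `e`
covers `d`. -/
theorem hk_covers {N Q : Subgroup G} {d e c E : GA k G}
    (hdQ : IsDef p N d Q) (hd : IsBlk N d) (hde : br Q d = e)
    (hc : IsBlk (Nn Q) c) (hce : c * e ≠ 0) (hE : IsBlk ⊤ E) (hEc : br Q E * c = c) :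
    E * d ≠ 0 := by
  intro h0
  apply hce
  have h1 : br Q E * e = 0 := by
    rw [← hde, ← br_mul hdQ.pgroup (hE.inZ.2.mono le_top) (hd.inZ.2.mono hdQ.le), h0, br_zero]
  rw [← hEc, (inZ_br_top hE.inZ).comm hc.inZ, mul_assoc, h1, mul_zero]

/-- Harris–Knörr, existence: a block of `G` covering `d` corresponds to a block of `N_G(Q)`
covering `e`. -/
theorem hk_exists {N Q : Subgroup G} [N.Normal] {d e E : GA k G}
    (hdQ : IsDef p N d Q) (hd : IsBlk N d) (hde : br Q d = e)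
    (hE : IsBlk ⊤ E) (hEd : E * d ≠ 0) :
    ∃ c, IsBlk (Nn Q) c ∧ c * e ≠ 0 ∧ br Q E * c = c := by
  have h1 := br_mul_ne_zero hd hE.inZ.2 hE.idem hdQ.le hdQ.pgroup hdQ.br_ne hEd
  rw [hde] at h1
  have hEE : br Q E * br Q E = br Q E := br_idem hdQ.pgroup (hE.inZ.2.mono le_top) hE.idem
  obtain ⟨s, hs, hsum⟩ := exists_decomp (Nn Q) (inZ_br_top hE.inZ) hEE
  by_contra hcon
  push Not at hcon
  apply h1
  rw [← hsum, Finset.sum_mul]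
  refine Finset.sum_eq_zero (fun c hc => ?_)
  by_contra hne
  exact hcon c (hs c hc).1 hne (hs c hc).2

/-- Harris–Knörr, uniqueness. -/
theorem hk_unique {N Q : Subgroup G} [N.Normal] {e c₁ c₂ E : GA k G}
    (he : IsBlk (Nn Q ⊓ N) e) (heQ : IsDef p (Nn Q ⊓ N) e Q)
    (hc₁ : IsBlk (Nn Q) c₁) (hce₁ : c₁ * e ≠ 0) (hc₂ : IsBlk (Nn Q) c₂) (hce₂ : c₂ * e ≠ 0)
    (hE : IsBlk ⊤ E) (hEc₁ : br Q E * c₁ = c₁) (hEc₂ : br Q E * c₂ = c₂) : c₁ = c₂ := by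
  obtain ⟨D₁, hD₁, hDQ₁⟩ := knorr_rel inf_le_left (Nn_le_Nn_inf_normal N Q) hc₁ he heQ hce₁
  obtain ⟨D₂, hD₂, hDQ₂⟩ := knorr_rel inf_le_left (Nn_le_Nn_inf_normal N Q) hc₂ he heQ hce₂
  have hinf : ∀ D : Subgroup G, D ≤ Nn Q → D ⊓ (Nn Q ⊓ N) = Q → D ⊓ N = Q := by
    intro D hD h
    rw [← h, ← inf_assoc, inf_eq_left.2 hD]
  have hN₁ := hinf D₁ hD₁.le hDQ₁
  have hN₂ := hinf D₂ hD₂.le hDQ₂
  have hNn : ∀ D : Subgroup G, D ⊓ N = Q → Nn D ≤ Nn Q := by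
    intro D h x hx
    apply mem_Nn_of_cS_eq
    rw [← h, cS_inf, cS_normal N, cS_eq_self_of_mem_Nn hx]
  have hbr : ∀ (D : Subgroup G) (c : GA k G), IsBlk (Nn Q) c → IsDef p (Nn Q) c D → D ⊓ N = Q →
      br Q E * c = c → br D E * br D c ≠ 0 := by
    intro D c hc hD hDN hEc
    have hQD : Q ≤ D := hDN ▸ inf_le_left
    have h1 := congrArg (br D) hEc
    rw [br_mul hD.pgroup ((inZ_br_top hE.inZ).2.mono hD.le) (hc.inZ.2.mono hD.le),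
      br_br hQD] at h1
    rw [h1]
    exact hD.br_ne
  have hE₁ := isDef_of_br_mul_ne_zero (hNn D₁ hN₁) hc₁ hD₁ hE (hbr D₁ c₁ hc₁ hD₁ hN₁ hEc₁)
  have hE₂ := isDef_of_br_mul_ne_zero (hNn D₂ hN₂) hc₂ hD₂ hE (hbr D₂ c₂ hc₂ hD₂ hN₂ hEc₂)
  obtain ⟨x, _, hx⟩ := hE₁.exists_conj hE₂
  have hxQ : x ∈ Nn Q := by
    apply mem_Nn_of_cS_eq
    conv_lhs => rw [← hN₁]
    rw [cS_inf, cS_normal N, ← hx, hN₂]
  have hD₁' : IsDef p (Nn Q) c₁ D₂ := by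
    rw [hx]; exact hD₁.conj hc₁.inZ.2 hxQ
  exact eq_of_br_mul_ne_zero (hNn D₂ hN₂) hc₁ hD₁' hc₂ hD₂ hE
    (hbr D₂ c₁ hc₁ hD₁' hN₂ hEc₁) (hbr D₂ c₂ hc₂ hD₂ hN₂ hEc₂)

end Kn

end Cfsg.Agent.Lib.Helper29
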