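import Mathlib
import Cfsg.Prelude.Def_BlockLocal
import Cfsg.Agent.Lib.Helper29.HarrisKnorrGA
import Cfsg.Agent.Lib.Helper29.Knorr2
import Cfsg.Agent.Lib.Helper21.Cover3
import Cfsg.Agent.S0919

set_option autoImplicit false
set_option linter.unusedSectionVars false

namespace Cfsg.Agent.Lib.Helper29

open scoped BigOperators
open Cfsg Cfsg.Agent.Lib.Helper80 Cfsg.Agent.Lib.Helper81 Cfsg.Agent.Lib.Helper20
open Cfsg.Agent.Lib.Helper21

namespace Kn

open GA

section alg
variable {k : Type*} {G : Type*} [Field k] [Group G] [Fintype G]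
variable {p : ℕ} [Fact p.Prime] [CharP k p]

/-- If `Q ⊴ K`, `E` is a `K`-stable idempotent whose Brauer image lives on `K` and the truncation
of `E` to `K` is not nilpotent on the block `f` of `K`, then `Br_Q(E) f = f`. -/
theorem br_mul_eq_of_not_nilpotent {K Q : Subgroup G} (hQ : IsPGroup p Q) (hQK : Q ≤ K)
    (hKN : K ≤ Nn Q) {E f : GA k G} (hEK : FixBy K E) (hEE : E * E = E)
    (hsupp : ∀ g ∈ Cn Q, g ∉ K → E g = 0) (hf : IsBlk K f)
    (hnn : ¬ IsNilpotent (trunc K E * f)) : br Q E * f = f := by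
  have huZ : InZ K (br Q E) := by
    refine ⟨fun g hg => ?_, hEK.br hKN⟩
    by_cases hc : g ∈ Cn Q
    · rw [br_apply_mem _ hc]; exact hsupp g hc hg
    · exact br_apply_not_mem _ hc
  have huu : br Q E * br Q E = br Q E := br_idem hQ (hEK.mono hQK) hEE
  have htZ : InZ K (trunc K E) := by
    refine ⟨trunc_suppOn K E, ?_⟩
    rw [fixBy_iff]
    intro x hx g
    by_cases hg : g ∈ K
    · rw [trunc_apply_mem _ hg, trunc_apply_mem _ (K.mul_mem (K.mul_mem hx hg) (K.inv_mem hx)),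
        hEK.apply hx]
    · rw [trunc_apply_not_mem _ hg, trunc_apply_not_mem]
      intro h
      apply hg
      have := K.mul_mem (K.mul_mem (K.inv_mem hx) h) hx
      simpa [mul_assoc] using this
  have hbrt : br Q (trunc K E) = br Q E := by
    ext g
    by_cases hc : g ∈ Cn Q
    · rw [br_apply_mem _ hc, br_apply_mem _ hc]
      by_cases hg : g ∈ K
      · exact trunc_apply_mem _ hg
      · rw [trunc_apply_not_mem _ hg, hsupp g hc hg]
    · rw [br_apply_not_mem _ hc, br_apply_not_mem _ hc]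
  have hnZ : InZ K (trunc K E - br Q E) := htZ.sub huZ
  have hnil : IsNilpotent (trunc K E - br Q E) := by
    apply isNilpotent_of_br_eq_zero hQ hQK hKN hnZ
    rw [br_sub, hbrt, br_br le_rfl, sub_self]
  rcases hf.prim _ huZ huu with h | h
  · exfalso
    apply hnn
    have h1 : trunc K E * f = (trunc K E - br Q E) * f := by rw [sub_mul, h, sub_zero]
    rw [h1]
    obtain ⟨n, hn⟩ := hnil
    refine ⟨n, ?_⟩
    have hc : Commute (trunc K E - br Q E) f := hnZ.comm hf.inZ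
    rw [hc.mul_pow, hn, zero_mul]
  · exact h

end alg

variable {p : ℕ} [Fact p.Prime] {M : Ideal AlgInt} (hM : IsPModular p M)
  {G : Type*} [Group G] [Fintype G]

/-- non-nilpotency of a truncation from a central character value -/
theorem not_isNilpotent_trunc_mul_bl (K : Subgroup G) [Fintype K] {f : Set (IrrCharacter K)}
    (hf : IsPBlock M f) {A : G → ℂ} (hAR : RV M A)
    (hA : IsClassFunction K (fun x : K => A x)) {ξ : IrrCharacter K} (hξ : ξ ∈ f)
    (h : ¬ MemLocalIdeal M (omega (ξ : K → ℂ) (fun x : K => A x))) :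
    ¬ IsNilpotent (trunc K (red hM A) * bl hM K f) := by
  have h1 := not_isNilpotent_red_mul_blkR hM hf hA (fun x => hAR x) hξ h
  intro hn
  apply h1
  have h2 : emb K (red hM (fun x : K => A x) * blkR hM f) = trunc K (red hM A) * bl hM K f := by
    rw [emb_mul, ← bl_eq_emb, ← emb_rst_eq_trunc]
    rfl
  obtain ⟨n, hn⟩ := hn
  refine ⟨n, ?_⟩
  apply emb_injective K
  rw [emb_pow, h2, hn, emb_zero]

include hM in
theorem not_memLocalIdeal_of_sub_one {z : ℂ} (h : MemLocalIdeal M (z - 1)) :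
    ¬ MemLocalIdeal M z := by
  intro hz
  apply not_memLocalIdeal_one hM
  have := memLocalIdeal_sub hM hz h
  rwa [sub_sub_cancel] at this

/-- block induction from `Q C(Q) ≤ H ≤ N(Q)`, forward translation -/
theorem br_mul_bl_of_induced {Q H : Subgroup G} (hQ : IsPGroup p Q) (hQH : Q ≤ H)
    (hCH : Cn Q ≤ H) (hHN : H ≤ Nn Q) {c : Set (IrrCharacter H)} {B : Set (IrrCharacter G)}
    (hind : IsInducedBlock M H c B) : br Q (blkR hM B) * bl hM H c = bl hM H c := by
  classical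
  have _ : Fintype H := Fintype.ofFinite H
  obtain ⟨ξ, hξ⟩ := isPBlock_nonempty hM hind.1
  obtain ⟨χ, hχ⟩ := isPBlock_nonempty hM hind.2.1
  have h1 := omega_res_sub_omega_of_induced hM hind hξ hχ (blockCoeff_classFunction B)
    (RV_blockCoeff hM hind.2.1)
  rw [omega_blockCoeff, if_pos hχ] at h1
  apply br_mul_eq_of_not_nilpotent hQ hQH hHN ((blkR_inZ hM B).2.mono le_top)
    (blkR_idem hM hind.2.1) (fun g hg hgH => absurd (hCH hg) hgH) (isBlk_bl hM H hind.1)
  exact not_isNilpotent_trunc_mul_bl hM H hind.1 (RV_blockCoeff hM hind.2.1)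
    (fun g h => blockCoeff_classFunction B _ _) hξ (not_memLocalIdeal_of_sub_one hM h1)

/-- block induction from `Q C(Q) ≤ H ≤ N(Q)` in terms of block idempotents -/
theorem isInducedBlock_iff {Q H : Subgroup G} (hQ : IsPGroup p Q) (hQH : Q ≤ H)
    (hCH : Cn Q ≤ H) (hHN : H ≤ Nn Q) {c : Set (IrrCharacter H)} (hc : IsPBlock M c)
    {B : Set (IrrCharacter G)} (hB : IsPBlock M B) :
    IsInducedBlock M H c B ↔ br Q (blkR hM B) * bl hM H c = bl hM H c := by
  constructor
  · exact br_mul_bl_of_induced hM hQ hQH hCH hHN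
  · intro h
    obtain ⟨B', hB'⟩ := Cfsg.Agent.S0919.result p M hM Q H hQ hQH hCH hHN c hc
    have h' := br_mul_bl_of_induced hM hQ hQH hCH hHN hB'
    rcases (isBlk_blkR hM hB).eq_or_orth (isBlk_blkR hM hB'.2.1) with h1 | h1
    · rw [blkR_injective hM hB hB'.2.1 h1]; exact hB'
    · exfalso
      apply (isBlk_bl hM H hc).ne_zero
      rw [← h, ← h', ← mul_assoc, ← br_mul hQ ((blkR_inZ hM B).2.mono le_top)
        ((blkR_inZ hM B').2.mono le_top), h1, br_zero, zero_mul]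

/-- the central character of `ξ ∈ Irr(K)` on the restriction of a class function of `H ≥ K`,
class by class (relative version) -/
theorem omega_res_eq_sum_classes_in {H K : Subgroup G} (hKH : K ≤ H) [Fintype H] [Fintype K]
    [Fintype (ConjClasses H)] (ξ : K → ℂ) {z : H → ℂ} (hz : IsClassFunction H z) :
    omega ξ (fun x : K => z ⟨x, hKH x.2⟩) =
      ∑ C : ConjClasses H, z (Quotient.out C) *
        inducedCentralCharIn H K ξ ((Quotient.out C : H) : G) := by
  classical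
  rw [omega, ← Finset.sum_fiberwise Finset.univ
    (fun x : K => ConjClasses.mk (⟨x, hKH x.2⟩ : H))]
  apply Finset.sum_congr rfl; intro C _
  rw [inducedCentralCharIn, finsum_mem_irr, Finset.mul_sum, Finset.sum_filter]
  apply Finset.sum_congr rfl; intro x _
  have hiff : ConjClasses.mk (⟨x, hKH x.2⟩ : H) = C ↔
      x ∈ {x : K | ∃ y : H, (y : G) * (x : G) * (y : G)⁻¹ = ((Quotient.out C : H) : G)} := by
    rw [Set.mem_ofPred_eq]
    conv_lhs => rw [← (show ConjClasses.mk (Quotient.out C) = C from Quotient.out_eq C)]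
    rw [ConjClasses.mk_eq_mk_iff_isConj, _root_.isConj_iff]
    constructor
    · rintro ⟨y, hy⟩
      exact ⟨y, by simpa using congrArg Subtype.val hy⟩
    · rintro ⟨y, hy⟩
      exact ⟨y, Subtype.ext (by simpa using hy)⟩
  by_cases hC : ConjClasses.mk (⟨x, hKH x.2⟩ : H) = C
  · rw [if_pos hC, if_pos (hiff.1 hC)]
    have : z ⟨x, hKH x.2⟩ = z (Quotient.out C) := by
      obtain ⟨y, hy⟩ := hiff.1 hC
      have : (Quotient.out C : H) = y * ⟨x, hKH x.2⟩ * y⁻¹ := Subtype.ext (by simpa using hy.symm)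
      rw [this, hz]
    rw [this]; ring
  · rw [if_neg hC, if_neg (fun h' => hC (hiff.2 h')), mul_zero]

include hM in
theorem omega_res_sub_omega_of_inducedIn {H K : Subgroup G} (hKH : K ≤ H) [Fintype H] [Fintype K]
    {e : Set (IrrCharacter K)} {f : Set (IrrCharacter H)} (hind : IsInducedBlockIn M H K e f)
    {ξ : IrrCharacter K} (hξ : ξ ∈ e) {χ : IrrCharacter H} (hχ : χ ∈ f) {z : H → ℂ}
    (hz : IsClassFunction H z) (hzR : ∀ g, MemLocalRing M (z g)) :
    MemLocalIdeal M (omega (ξ : K → ℂ) (fun x : K => z ⟨x, hKH x.2⟩) - omega (χ : H → ℂ) z) := by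
  classical
  have _ : Fintype (ConjClasses H) := Fintype.ofFinite _
  rw [omega_res_eq_sum_classes_in hKH _ hz, omega_eq_sum_classes (irr_classFunction χ) hz,
    ← Finset.sum_sub_distrib]
  apply memLocalIdeal_sum hM
  intro C _
  rw [← mul_sub]
  exact memLocalIdeal_mul_left hM (hzR _) (hind.2.2 ξ hξ χ hχ _)

/-- relative block induction, forward translation: `K = N_X(Q)`-like subgroup of `X` -/
theorem br_mul_bl_of_inducedIn {Q X K : Subgroup G} (hQ : IsPGroup p Q) (hQK : Q ≤ K)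
    (hKX : K ≤ X) (hCK : Cn Q ⊓ X ≤ K) (hKN : K ≤ Nn Q) {e : Set (IrrCharacter K)}
    {f : Set (IrrCharacter X)} (hind : IsInducedBlockIn M X K e f) :
    br Q (bl hM X f) * bl hM K e = bl hM K e := by
  classical
  have _ : Fintype X := Fintype.ofFinite X
  have _ : Fintype K := Fintype.ofFinite K
  obtain ⟨ξ, hξ⟩ := isPBlock_nonempty hM hind.1
  obtain ⟨χ, hχ⟩ := isPBlock_nonempty hM hind.2.1
  have h1 := omega_res_sub_omega_of_inducedIn hM hKX hind hξ hχ (blockCoeff_classFunction f)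
    (RV_blockCoeff hM hind.2.1)
  rw [omega_blockCoeff, if_pos hχ] at h1
  have hfX := isBlk_bl hM X hind.2.1
  have hres : (fun x : K => subgroupBlockCoeff X f (x : G)) =
      fun x : K => blockCoeff f ⟨x, hKX x.2⟩ := by
    funext x
    exact subgroupBlockCoeff_mem X f (hKX x.2)
  apply br_mul_eq_of_not_nilpotent hQ hQK hKN (hfX.inZ.2.mono hKX) hfX.idem
    (fun g hg hgK => hfX.inZ.1 g (fun hgX => hgK (hCK ⟨hg, hgX⟩))) (isBlk_bl hM K hind.1)
  refine not_isNilpotent_trunc_mul_bl hM K hind.1 (RV_subgroupBlockCoeff hM X hind.2.1) ?_ hξ ?_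
  · rw [hres]
    intro g h
    exact blockCoeff_classFunction f ⟨g, hKX g.2⟩ ⟨h, hKX h.2⟩
  · rw [hres]
    exact not_memLocalIdeal_of_sub_one hM h1

/-- converse covering translation -/
theorem covers_of_mul_ne_zero {N : Subgroup G} (hN : N.Normal) [Fintype N]
    {B : Set (IrrCharacter G)} (hB : IsPBlock M B) {b : Set (IrrCharacter N)} (hb : IsPBlock M b)
    (h : blkR hM B * bl hM N b ≠ 0) :
    ∃ χ ∈ B, ∃ θ ∈ b, classInner (fun n : N => (χ : G → ℂ) n) (θ : N → ℂ) ≠ 0 := by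
  obtain ⟨χ, hχ⟩ := isPBlock_nonempty hM hB
  obtain ⟨θ', hθ'⟩ := exists_constituent_res N χ
  have hb' : IsPBlock M (blockOf M (θ' : N → ℂ)) := ⟨θ', rfl⟩
  have h' := mul_ne_zero_of_covers hM hN hB hb' ⟨χ, hχ, θ', mem_blockOf_self hM θ', hθ'⟩
  obtain ⟨g, hg⟩ := exists_cj_of_mul_ne_zero (isBlk_bl hM N hb) (isBlk_bl hM N hb')
    (isBlk_blkR hM hB) h h'
  have hK : ∀ x, x ∈ N ↔ g⁻¹ * x * g ∈ N := by
    intro x
    have := hN.mem_comm_iff (a := g⁻¹ * x) (b := g)
    rw [this]; simp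
  rw [← bl_cjSet hM hK] at hg
  have hbb := bl_injective hM N hb' (isPBlock_cjSet hK hb) hg
  have hmem : θ' ∈ cjSet N N g b := hbb ▸ mem_blockOf_self hM θ'
  obtain ⟨θ, hθ, hrel⟩ := hmem
  refine ⟨χ, hχ, θ, hθ, ?_⟩
  have : θ = cjIrr hN g θ' := by
    apply Subtype.ext
    funext n
    rw [cjIrr_coe, Cfsg.Agent.Lib.Helper5.cjF_apply]
    exact (hrel n ⟨g * n * g⁻¹, hN.conj_mem n n.2 g⟩ rfl).symm
  rw [this, constituent_cjIrr]
  exact hθ'

theorem covers_iff_mul_ne_zero {N : Subgroup G} (hN : N.Normal) [Fintype N]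
    {B : Set (IrrCharacter G)} (hB : IsPBlock M B) {b : Set (IrrCharacter N)} (hb : IsPBlock M b) :
    (∃ χ ∈ B, ∃ θ ∈ b, classInner (fun n : N => (χ : G → ℂ) n) (θ : N → ℂ) ≠ 0) ↔
      blkR hM B * bl hM N b ≠ 0 :=
  ⟨mul_ne_zero_of_covers hM hN hB hb, covers_of_mul_ne_zero hM hN hB hb⟩

/-- transport of a set of characters of `K ≤ H` to `K.subgroupOf H` -/
def dn {H K : Subgroup G} (hKH : K ≤ H) (e : Set (IrrCharacter K)) :
    Set (IrrCharacter (K.subgroupOf H)) :=
  irrMap (Subgroup.subgroupOfEquivOfLe hKH) '' e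

theorem isPBlock_dn {H K : Subgroup G} (hKH : K ≤ H) {e : Set (IrrCharacter K)}
    (he : IsPBlock M e) : IsPBlock M (dn hKH e) := isPBlock_image _ he

theorem emb_bl_dn {H K : Subgroup G} (hKH : K ≤ H) [Fintype H] (e : Set (IrrCharacter K)) :
    emb H (bl hM (K.subgroupOf H) (dn hKH e)) = bl hM K e := by
  ext g
  by_cases hgH : g ∈ H
  · rw [emb_apply_mem H _ hgH]
    show resC hM _ = resC hM _
    by_cases hgK : g ∈ K
    · have hgK' : (⟨g, hgH⟩ : H) ∈ K.subgroupOf H := Subgroup.mem_subgroupOf.2 hgK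
      rw [subgroupBlockCoeff_mem _ _ hgK', subgroupBlockCoeff_mem _ _ hgK, dn, blockCoeff_image]
      rfl
    · have hgK' : (⟨g, hgH⟩ : H) ∉ K.subgroupOf H := fun h => hgK (Subgroup.mem_subgroupOf.1 h)
      rw [subgroupBlockCoeff_not_mem _ _ hgK', subgroupBlockCoeff_not_mem _ _ hgK]
  · rw [emb_apply_not_mem H _ hgH]
    show 0 = resC hM _
    rw [subgroupBlockCoeff_not_mem _ _ (fun h => hgH (hKH h)), resC_zero]

theorem classInner_dn {H K : Subgroup G} (hKH : K ≤ H) [Fintype K] [Fintype (K.subgroupOf H)]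
    (ψ : H → ℂ) (ξ : IrrCharacter K) :
    classInner (fun n : K.subgroupOf H => ψ n)
        (irrMap (Subgroup.subgroupOfEquivOfLe hKH) ξ : K.subgroupOf H → ℂ) =
      classInner (fun l : K => ψ (Subgroup.inclusion hKH l)) (ξ : K → ℂ) := by
  unfold classInner
  rw [Nat.card_congr (Subgroup.subgroupOfEquivOfLe hKH).toEquiv]
  congr 1
  exact Fintype.sum_equiv (Subgroup.subgroupOfEquivOfLe hKH).toEquiv _ _ (fun n => rfl)

/-- covering, relative version: `K ⊴ H ≤ G` -/
theorem coversRel_iff {H K : Subgroup G} (hKH : K ≤ H) (hHK : H ≤ Nn K) [Fintype K]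
    {c : Set (IrrCharacter H)} (hc : IsPBlock M c) {e : Set (IrrCharacter K)}
    (he : IsPBlock M e) :
    (∃ ψ ∈ c, ∃ ξ ∈ e,
      classInner (fun l : K => (ψ : H → ℂ) (Subgroup.inclusion hKH l)) (ξ : K → ℂ) ≠ 0) ↔
      bl hM H c * bl hM K e ≠ 0 := by
  have _ : Fintype H := Fintype.ofFinite H
  have _ : Fintype (K.subgroupOf H) := Fintype.ofFinite _
  have hn : (K.subgroupOf H).Normal := (Subgroup.normal_subgroupOf_iff_le_normalizer hKH).2 hHK
  have h1 := covers_iff_mul_ne_zero hM hn hc (isPBlock_dn hKH he)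
  have h2 : blkR hM c * bl hM (K.subgroupOf H) (dn hKH e) ≠ 0 ↔ bl hM H c * bl hM K e ≠ 0 := by
    rw [← emb_bl_dn hM hKH e, bl_eq_emb hM H c, ← emb_mul, Ne, Ne, emb_eq_zero_iff]
  rw [← h2, ← h1]
  constructor
  · rintro ⟨ψ, hψ, ξ, hξ, h⟩
    exact ⟨ψ, hψ, _, ⟨ξ, hξ, rfl⟩, by rw [classInner_dn]; exact h⟩
  · rintro ⟨ψ, hψ, _, ⟨ξ, hξ, rfl⟩, h⟩
    exact ⟨ψ, hψ, ξ, hξ, by rw [classInner_dn] at h; exact h⟩

end Kn

end Cfsg.Agent.Lib.Helper29
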