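import Mathlib
import Cfsg.Agent.Lib.Helper65.IA.Defs
import Cfsg.Agent.Lib.Helper65.IA.Lift

/-! IA ladder (helper65), rung BF: a Brauer-Fowler type count. -/

set_option autoImplicit false

namespace Cfsg.Agent.Lib.Helper29.IA

open Cfsg.Agent.Lib.Helper65.IA

open Finset in
/-- fibres which are parametrized by a fixed finite set -/
theorem bf_fibre_le {γ β : Type*} [DecidableEq γ] [DecidableEq β] (f : γ → β) (H : Finset γ)
    (φ : γ → γ → γ) (hf : ∀ x y, f x = f y → ∃ u ∈ H, x = φ y u) (s : Finset γ) (b : β) :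
    #{a ∈ s | f a = b} ≤ #H := by
  rcases ({a ∈ s | f a = b} : Finset γ).eq_empty_or_nonempty with h | ⟨g', hg'⟩
  · rw [h]; simp
  · have hsub : ({a ∈ s | f a = b} : Finset γ) ⊆ H.image (φ g') := by
      intro x hx
      rw [mem_filter] at hx hg'
      obtain ⟨u, hu, rfl⟩ := hf x g' (hx.2.trans hg'.2.symm)
      exact mem_image_of_mem _ hu
    exact (card_le_card hsub).trans card_image_le

/-- the involution attached to an element `g` with `κ g` of even order -/
theorem bf_invol {G : Type} [Group G] [Finite G] {α : MulAut G} (hsq : ∀ g, α (α g) = g) (g : G)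
    (hg : g * (α g)⁻¹ ∉ XS α) :
    ∃ z : G, z ≠ 1 ∧ z * z = 1 ∧ α z = z ∧ α (g⁻¹ * z * g) = g⁻¹ * z * g := by
  set k := g * (α g)⁻¹ with hk
  have hkinv : α k = k⁻¹ := kappa_inv hsq g
  have heven : Even (orderOf k) := by
    by_contra hodd
    rw [Nat.not_even_iff_odd] at hodd
    exact hg ⟨hodd, hkinv⟩
  obtain ⟨r, hr⟩ := heven
  have hpos : 0 < orderOf k := orderOf_pos k
  have hzz : k ^ r * k ^ r = 1 := by rw [← pow_add, ← hr, pow_orderOf_eq_one]
  have hzinv : (k ^ r)⁻¹ = k ^ r := inv_eq_of_mul_eq_one_left hzz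
  have hαz : α (k ^ r) = k ^ r := by rw [map_pow, hkinv, inv_pow, hzinv]
  refine ⟨k ^ r, pow_ne_one_of_lt_orderOf (by omega) (by omega), hzz, hαz, ?_⟩
  have hcomm : k ^ r * k = k * k ^ r := (Commute.pow_self k r)
  rw [map_mul, map_mul, map_inv, hαz]
  have h1 : (α g)⁻¹ = g⁻¹ * k := by rw [hk]; group
  have h2 : α g = k⁻¹ * g := by rw [hk]; group
  rw [h1, h2]
  have h3 : g⁻¹ * k * k ^ r * (k⁻¹ * g) = g⁻¹ * (k * k ^ r) * k⁻¹ * g := by group
  rw [h3, ← hcomm]
  group

theorem brauer_fowler {G : Type} [Group G] [Finite G] {α : MulAut G} (hsq : ∀ g, α (α g) = g) :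
    Nat.card G < 2 * Nat.card (FixS α) * Nat.card (XS α) ∨
    ∃ z : G, z ≠ 1 ∧ z * z = 1 ∧ α z = z ∧
      (Subgroup.centralizer ({z} : Set G)).index ≤
        2 * Nat.card (FixS α) * Nat.card (FixS α) := by
  classical
  have : Fintype G := Fintype.ofFinite G
  by_contra hcon
  rw [not_or, not_lt] at hcon
  obtain ⟨hN, hz⟩ := hcon
  have hz' : ∀ z : G, z ≠ 1 → z * z = 1 → α z = z →
      2 * Nat.card (FixS α) * Nat.card (FixS α) <
        (Subgroup.centralizer ({z} : Set G)).index := by
    intro z h1 h2 h3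
    by_contra h4
    exact hz ⟨z, h1, h2, h3, not_lt.1 h4⟩
  -- finset versions
  let Cf : Finset G := Finset.univ.filter (fun g => g ∈ FixS α)
  let Xf : Finset G := Finset.univ.filter (fun g => g ∈ XS α)
  let Zf : G → Finset G := fun z =>
    Finset.univ.filter (fun g => g ∈ Subgroup.centralizer ({z} : Set G))
  have hc : Nat.card (FixS α) = Cf.card := Nat.subtype_card Cf (by simp [Cf])
  have hn : Nat.card (XS α) = Xf.card := Nat.subtype_card Xf (by simp [Xf])
  have hm : ∀ z, Nat.card (Subgroup.centralizer ({z} : Set G)) = (Zf z).card :=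
    fun z => Nat.subtype_card (Zf z) (by simp [Zf])
  have hG : Nat.card G = (Finset.univ : Finset G).card := by
    rw [Nat.card_eq_fintype_card, Finset.card_univ]
  set c := Nat.card (FixS α) with hcdef
  set n := Nat.card (XS α) with hndef
  set N := Nat.card G with hNdef
  let A : Finset G := Finset.univ.filter (fun g => g * (α g)⁻¹ ∈ XS α)
  let B : G → Finset G := fun z => Finset.univ.filter (fun g => g⁻¹ * z * g ∈ FixS α)
  let I : Finset G := Cf.filter (fun z => z ≠ 1 ∧ z * z = 1)
  have hA : A.card ≤ c * n := by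
    rw [hc, hn]
    refine Finset.card_le_mul_card_image_of_maps_to (f := fun g => g * (α g)⁻¹) (t := Xf)
      (fun a ha => ?_) _ (fun b _ => ?_)
    · simp only [A, Xf, Finset.mem_filter, Finset.mem_univ, true_and] at ha ⊢
      exact ha
    · refine bf_fibre_le _ Cf (fun y u => y * u) ?_ A b
      intro x y hxy
      refine ⟨y⁻¹ * x, ?_, by group⟩
      simp only [Cf, Finset.mem_filter, Finset.mem_univ, true_and, mem_FixS]
      have h1 : x * (α x)⁻¹ = y * (α y)⁻¹ := hxy
      rw [map_mul, map_inv]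
      have h2 : α x = (y * (α y)⁻¹)⁻¹ * x := by rw [← h1]; group
      rw [h2]
      group
  have hB : ∀ z, (B z).card ≤ (Zf z).card * c := by
    intro z
    rw [hc]
    refine Finset.card_le_mul_card_image_of_maps_to (f := fun g => g⁻¹ * z * g) (t := Cf)
      (fun a ha => ?_) _ (fun b _ => ?_)
    · simp only [B, Cf, Finset.mem_filter, Finset.mem_univ, true_and] at ha ⊢
      exact ha
    · refine bf_fibre_le _ (Zf z) (fun y u => u * y) ?_ (B z) b
      intro x y hxy
      refine ⟨x * y⁻¹, ?_, by group⟩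
      simp only [Zf, Finset.mem_filter, Finset.mem_univ, true_and]
      rw [Subgroup.mem_centralizer_singleton_iff]
      have h1 : x⁻¹ * z * x = y⁻¹ * z * y := hxy
      have h2 : z = x * (y⁻¹ * z * y) * x⁻¹ := by rw [← h1]; group
      have h3 : x * y⁻¹ * z = x * (y⁻¹ * z * y) * x⁻¹ * (x * y⁻¹) := by group
      rw [h3, ← h2]
  have hcover : (Finset.univ : Finset G) ⊆ A ∪ I.biUnion B := by
    intro g _
    by_cases hg : g * (α g)⁻¹ ∈ XS α
    · exact Finset.mem_union_left _ (by simp [A, hg])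
    · obtain ⟨z, h1, h2, h3, h4⟩ := bf_invol hsq g hg
      refine Finset.mem_union_right _ (Finset.mem_biUnion.2 ⟨z, ?_, ?_⟩)
      · simp [I, Cf, h1, h2, h3]
      · simp only [B, Finset.mem_filter, Finset.mem_univ, true_and, mem_FixS]
        exact h4
  have hI : I.card + 1 ≤ c := by
    have hsub : I ⊆ Cf.erase 1 := by
      intro z hz
      simp only [I, Finset.mem_filter] at hz
      exact Finset.mem_erase.2 ⟨hz.2.1, hz.1⟩
    have h1 : (1 : G) ∈ Cf := by simp [Cf]
    have h2 := Finset.card_le_card hsub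
    rw [Finset.card_erase_of_mem h1] at h2
    have h3 : 0 < Cf.card := Finset.card_pos.2 ⟨1, h1⟩
    omega
  have hNle : N ≤ c * n + ∑ z ∈ I, (Zf z).card * c := by
    rw [hG]
    calc (Finset.univ : Finset G).card ≤ (A ∪ I.biUnion B).card := Finset.card_le_card hcover
      _ ≤ A.card + (I.biUnion B).card := Finset.card_union_le _ _
      _ ≤ c * n + ∑ z ∈ I, (B z).card := Nat.add_le_add hA Finset.card_biUnion_le
      _ ≤ c * n + ∑ z ∈ I, (Zf z).card * c :=
          Nat.add_le_add_left (Finset.sum_le_sum (fun z _ => hB z)) _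
  have hterm : ∀ z ∈ I, 2 * c * ((Zf z).card * c) ≤ N := by
    intro z hzI
    simp only [I, Cf, Finset.mem_filter, Finset.mem_univ, true_and, mem_FixS] at hzI
    have h1 := hz' z hzI.2.1 hzI.2.2 hzI.1
    have h2 := (Subgroup.centralizer ({z} : Set G)).card_mul_index
    rw [hm z] at h2
    calc 2 * c * ((Zf z).card * c) = (Zf z).card * (2 * c * c) := by ring
      _ ≤ (Zf z).card * (Subgroup.centralizer ({z} : Set G)).index :=
          Nat.mul_le_mul_left _ h1.le
      _ = N := h2
  have hsum : 2 * c * ∑ z ∈ I, (Zf z).card * c ≤ I.card * N := by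
    rw [Finset.mul_sum]
    have := Finset.sum_le_card_nsmul I (fun z => 2 * c * ((Zf z).card * c)) N hterm
    simpa using this
  have hNpos : 0 < N := Nat.card_pos
  have h5 : 2 * c * N ≤ c * (2 * c * n) + I.card * N := by
    calc 2 * c * N ≤ 2 * c * (c * n + ∑ z ∈ I, (Zf z).card * c) := Nat.mul_le_mul_left _ hNle
      _ = c * (2 * c * n) + 2 * c * ∑ z ∈ I, (Zf z).card * c := by ring
      _ ≤ c * (2 * c * n) + I.card * N := Nat.add_le_add_left hsum _
  have h6 : c * (2 * c * n) ≤ c * N := Nat.mul_le_mul_left _ hN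
  have h7 : (I.card + 1) * N ≤ c * N := Nat.mul_le_mul_right _ hI
  nlinarith

end Cfsg.Agent.Lib.Helper29.IA
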