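import Mathlib

/-! IA ladder (helper65), rung DIETZ: Dietzmann's lemma for an involution with few conjugates. -/

set_option autoImplicit false

namespace Cfsg.Agent.Lib.Helper29.IA

/-- rewriting a word over a normal set of involutions to a word without repetitions -/
theorem dietz_nodup {G : Type*} [Group G] (S : Set G) (hinv : ∀ s ∈ S, s * s = 1)
    (hconj : ∀ s ∈ S, ∀ t ∈ S, s * t * s⁻¹ ∈ S) :
    ∀ (n : ℕ) (l : List G), l.length = n → (∀ x ∈ l, x ∈ S) →
      ∃ l' : List G, l'.Nodup ∧ (∀ x ∈ l', x ∈ S) ∧ l'.prod = l.prod ∧ l'.length ≤ n := by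
  intro n
  induction n using Nat.strong_induction_on with
  | _ n ih =>
    intro l hl hS
    match l, hl, hS with
    | [], _, _ => exact ⟨[], List.nodup_nil, by simp, rfl, by simp⟩
    | s :: t, hl, hS =>
      have hlt : t.length < n := by
        simp only [List.length_cons] at hl
        omega
      obtain ⟨t', hnd, hS', hprod, hlen⟩ :=
        ih t.length hlt t rfl (fun x hx => hS x (List.mem_cons_of_mem _ hx))
      have hsS : s ∈ S := hS s List.mem_cons_self
      by_cases hs : s ∈ t'
      · obtain ⟨u, w, rfl⟩ := List.append_of_mem hs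
        have hl2len : (u.map (MulAut.conj s) ++ w).length < n := by
          simp only [List.length_append, List.length_map, List.length_cons] at hlen ⊢
          omega
        have hl2S : ∀ x ∈ u.map (MulAut.conj s) ++ w, x ∈ S := by
          intro x hx
          rcases List.mem_append.1 hx with hx | hx
          · obtain ⟨y, hy, rfl⟩ := List.mem_map.1 hx
            rw [MulAut.conj_apply]
            exact hconj s hsS y (hS' y (List.mem_append_left _ hy))
          · exact hS' x (List.mem_append_right _ (List.mem_cons_of_mem _ hx))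
        obtain ⟨l3, h1, h2, h3, h4⟩ := ih _ hl2len _ rfl hl2S
        refine ⟨l3, h1, h2, ?_, by omega⟩
        have hsinv : s⁻¹ = s := inv_eq_of_mul_eq_one_left (hinv s hsS)
        rw [h3, List.prod_cons, ← hprod, List.prod_append, List.prod_append, List.prod_cons,
          ← map_list_prod, MulAut.conj_apply, hsinv]
        simp only [mul_assoc]
      · refine ⟨s :: t', List.nodup_cons.2 ⟨hs, hnd⟩, ?_, by simp [hprod], ?_⟩
        · intro x hx
          rcases List.mem_cons.1 hx with rfl | hx
          · exact hsS
          · exact hS' x hx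
        · simp only [List.length_cons] at hl ⊢
          omega

/-- the number of conjugates is at most the index of the centralizer -/
theorem dietz_card_conj_le {G : Type*} [Group G] [Finite G] (z : G) :
    (Set.range (fun g : G => g * z * g⁻¹)).ncard ≤
      (Subgroup.centralizer ({z} : Set G)).index := by
  let f : G ⧸ Subgroup.centralizer ({z} : Set G) → G :=
    Quotient.lift (s := QuotientGroup.leftRel (Subgroup.centralizer ({z} : Set G)))
      (fun g => g * z * g⁻¹) (by
        intro a b hab
        have hab' : a⁻¹ * b ∈ Subgroup.centralizer ({z} : Set G) :=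
          QuotientGroup.leftRel_apply.1 hab
        rw [Subgroup.mem_centralizer_singleton_iff] at hab'
        have h1 : b = a * (a⁻¹ * b) := by group
        show a * z * a⁻¹ = b * z * b⁻¹
        rw [h1]
        have h2 : a * (a⁻¹ * b) * z * (a * (a⁻¹ * b))⁻¹
            = a * ((a⁻¹ * b) * z) * (a⁻¹ * b)⁻¹ * a⁻¹ := by group
        rw [h2]
        rw [hab']; group)
  have hsub : Set.range (fun g : G => g * z * g⁻¹) ⊆ Set.range f := by
    rintro _ ⟨g, rfl⟩
    exact ⟨(g : G ⧸ Subgroup.centralizer ({z} : Set G)), rfl⟩
  calc (Set.range (fun g : G => g * z * g⁻¹)).ncard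
      ≤ (Set.range f).ncard := Set.ncard_le_ncard hsub (Set.finite_range f)
    _ = (f '' Set.univ).ncard := by rw [Set.image_univ]
    _ ≤ (Set.univ : Set (G ⧸ Subgroup.centralizer ({z} : Set G))).ncard :=
        Set.ncard_image_le Set.finite_univ
    _ = (Subgroup.centralizer ({z} : Set G)).index := by
        rw [Set.ncard_univ, Subgroup.index_eq_card]

theorem dietzmann (m : ℕ) : ∃ B : ℕ, ∀ (G : Type) [Group G] [Finite G] (z : G), z * z = 1 →
    (Subgroup.centralizer ({z} : Set G)).index ≤ m →
    Nat.card (Subgroup.normalClosure ({z} : Set G)) ≤ B := by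
  classical
  refine ⟨(m + 1) ^ m, fun G _ _ z hz hidx => ?_⟩
  set S : Set G := Set.range (fun g : G => g * z * g⁻¹) with hSdef
  have hScard : S.ncard ≤ m := (dietz_card_conj_le z).trans hidx
  have hinv : ∀ s ∈ S, s * s = 1 := by
    rintro _ ⟨g, rfl⟩
    have : g * z * g⁻¹ * (g * z * g⁻¹) = g * (z * z) * g⁻¹ := by group
    rw [this, hz]
    group
  have hconj : ∀ s ∈ S, ∀ t ∈ S, s * t * s⁻¹ ∈ S := by
    rintro s - _ ⟨g, rfl⟩
    exact ⟨s * g, by group⟩
  have hSeq : Group.conjugatesOfSet ({z} : Set G) = S := by
    ext x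
    rw [Group.mem_conjugatesOfSet_iff]
    constructor
    · rintro ⟨a, ha, hx⟩
      rw [Set.mem_singleton_iff] at ha
      subst ha
      obtain ⟨c, hc⟩ := isConj_iff.1 hx
      exact ⟨c, hc⟩
    · rintro ⟨g, rfl⟩
      exact ⟨z, rfl, isConj_iff.2 ⟨g, rfl⟩⟩
  have hS1fin : (insert 1 S : Set G).Finite := Set.toFinite _
  let F : (Fin m → ↥(insert 1 S : Set G)) → G := fun f => (List.ofFn (fun i => (f i : G))).prod
  have hsub : ((Subgroup.normalClosure ({z} : Set G) : Subgroup G) : Set G) ⊆ Set.range F := by
    intro x hx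
    have hx' : x ∈ Subgroup.closure S := by
      rw [← hSeq]; exact hx
    have hx'' : x ∈ Submonoid.closure (S ∪ S⁻¹) := by
      rw [← Subgroup.closure_toSubmonoid]; exact hx'
    obtain ⟨l, hl, rfl⟩ := Submonoid.exists_list_of_mem_closure hx''
    have hlS : ∀ y ∈ l, y ∈ S := by
      intro y hy
      rcases hl y hy with h | h
      · exact h
      · have h1 : (y⁻¹)⁻¹ = y⁻¹ := inv_eq_of_mul_eq_one_left (hinv _ h)
        rw [inv_inv] at h1
        rw [h1]; exact h
    obtain ⟨l', hnd, hS', hprod, -⟩ := dietz_nodup S hinv hconj l.length l rfl hlS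
    have hlen : l'.length ≤ m := by
      have h1 : l'.toFinset.card = l'.length := List.toFinset_card_of_nodup hnd
      have h2 : (l'.toFinset : Set G) ⊆ S := by
        intro y hy
        exact hS' y (by simpa using hy)
      have h3 := Set.ncard_le_ncard h2 (Set.toFinite S)
      rw [Set.ncard_coe_finset] at h3
      omega
    -- pad
    have key : ∀ l2 : List G, l2.length = m → (∀ y ∈ l2, y ∈ (insert 1 S : Set G)) →
        ∃ f : Fin m → ↥(insert 1 S : Set G), F f = l2.prod := by
      intro l2 hl2 h2
      subst hl2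
      refine ⟨fun i => ⟨l2.get i, h2 _ (List.get_mem _ _)⟩, ?_⟩
      simp only [F]
      rw [List.ofFn_get]
    obtain ⟨f, hf⟩ := key (l' ++ List.replicate (m - l'.length) 1)
      (by simp only [List.length_append, List.length_replicate]; omega)
      (by
        intro y hy
        rcases List.mem_append.1 hy with hy | hy
        · exact Set.mem_insert_of_mem _ (hS' y hy)
        · rw [List.eq_of_mem_replicate hy]
          exact Set.mem_insert _ _)
    refine ⟨f, ?_⟩
    rw [hf, List.prod_append, List.prod_replicate, one_pow, mul_one, hprod]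
  have hcardS1 : Nat.card ↥(insert 1 S : Set G) ≤ m + 1 := by
    have h1 : (insert 1 S : Set G).ncard ≤ S.ncard + 1 := Set.ncard_insert_le _ _
    have h2 : Nat.card ↥(insert 1 S : Set G) = (insert 1 S : Set G).ncard := rfl
    omega
  calc Nat.card (Subgroup.normalClosure ({z} : Set G))
      = ((Subgroup.normalClosure ({z} : Set G) : Subgroup G) : Set G).ncard := rfl
    _ ≤ (Set.range F).ncard := Set.ncard_le_ncard hsub (Set.finite_range F)
    _ = (F '' Set.univ).ncard := by rw [Set.image_univ]
    _ ≤ (Set.univ : Set (Fin m → ↥(insert 1 S : Set G))).ncard :=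
        Set.ncard_image_le Set.finite_univ
    _ = Nat.card ↥(insert 1 S : Set G) ^ m := by
        rw [Set.ncard_univ, Nat.card_fun, Nat.card_eq_fintype_card (α := Fin m), Fintype.card_fin]
    _ ≤ (m + 1) ^ m := Nat.pow_le_pow_left hcardS1 m

end Cfsg.Agent.Lib.Helper29.IA
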