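import Mathlib
import Cfsg.Agent.Lib.Helper29.PConstr
import Cfsg.Agent.Lib.Helper29.GenAxB

set_option autoImplicit false

namespace Cfsg.Agent.Lib.Helper29

open Subgroup
open Cfsg.Agent.Lib.Helper37 (CharP)
open scoped commutatorElement

universe u

variable {X : Type u} [Group X] [Finite X] {p : ℕ} [Fact p.Prime]

/-- `p`-elements of `C(Ā)` in `X / O_{p'}(X)` lift to `p`-elements of `C(A)`. -/
theorem exists_lift_centralizer (A : Subgroup X) (hA : IsPGroup p A) {y : X ⧸ pPrimeCore p X}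
    (hy : y ∈ centralizer ((A.map (qm p X) : Subgroup (X ⧸ pPrimeCore p X)) :
      Set (X ⧸ pPrimeCore p X))) {k : ℕ} (hyk : y ^ p ^ k = 1) :
    ∃ x ∈ centralizer (A : Set X), x ^ p ^ k = 1 ∧ qm p X x = y := by
  have h1 := (Cfsg.Agent.S3800.result (pPrimeCore p X)
    (Cfsg.Agent.Lib.Helper28.pPrimeCore_coprime p) A hA).2
  have hy' : y ∈ (centralizer (A : Set X)).map (qm p X) := by
    rw [← h1]; exact hy
  obtain ⟨c, hc, rfl⟩ := hy'
  set m := Nat.card (pPrimeCore p X) with hm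
  have hcop : m.Coprime (p ^ k) := (Cfsg.Agent.Lib.Helper28.pPrimeCore_coprime p).pow_right k
  have hcO : c ^ p ^ k ∈ pPrimeCore p X := by
    rw [← ker_qm p, MonoidHom.mem_ker, map_pow, hyk]
  have hcm : (c ^ p ^ k) ^ m = 1 := by
    have := pow_card_eq_one' (x := (⟨c ^ p ^ k, hcO⟩ : pPrimeCore p X))
    exact congrArg Subtype.val this
  by_cases hk1 : p ^ k = 1
  · refine ⟨1, one_mem _, one_pow _, ?_⟩
    rw [hk1, pow_one] at hyk
    rw [map_one, hyk]
  have hk2 : 1 < p ^ k := by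
    have : 0 < p ^ k := pow_pos (Fact.out : p.Prime).pos k
    omega
  obtain ⟨s, -, hs⟩ := Nat.exists_mul_mod_eq_one_of_coprime hcop hk2
  refine ⟨c ^ (m * s), pow_mem hc _, ?_, ?_⟩
  · rw [← pow_mul, mul_comm (m * s), ← mul_assoc, pow_mul, pow_mul, hcm, one_pow]
  · rw [map_pow, pow_eq_pow_mod _ hyk, hs, pow_one]

theorem inf_eq_bot_of_coprime_of_isPGroup {Y : Type*} [Group Y] [Finite Y] {K R : Subgroup Y}
    (hK : (Nat.card K).Coprime p) (hR : IsPGroup p R) : K ⊓ R = ⊥ := by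
  obtain ⟨n, hn⟩ := IsPGroup.iff_card.1 hR
  exact (disjoint_of_coprime_natCard (hn ▸ hK.pow_right n)).eq_bot

/-- In a group of characteristic `p`, a `p'`-subgroup centralizing `O_p` is trivial. -/
theorem eq_bot_of_comm_pCore_eq_bot {Y : Type*} [Group Y] [Finite Y] (hY : CharP p Y)
    {K : Subgroup Y} (hK : (Nat.card K).Coprime p) (h : ⁅pCore p Y, K⁆ = ⊥) : K = ⊥ := by
  have h1 : K ≤ centralizer (pCore p Y : Set Y) := by
    rw [commutator_comm] at h
    exact commutator_eq_bot_iff_le_centralizer.1 h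
  have h2 : K ≤ K ⊓ pCore p Y := le_inf le_rfl (h1.trans hY)
  rwa [inf_eq_bot_of_coprime_of_isPGroup hK (Cfsg.Agent.Lib.Helper28.pCore_isPGroup p),
    le_bot_iff] at h2

/-- an element of `N(K) ∩ R` (`R` normal `p`-group, `K` a `p'`-group) centralizes `K`. -/
theorem mem_centralizer_of_mem_normalizer_of_coprime {Y : Type*} [Group Y] [Finite Y]
    {K R : Subgroup Y} [R.Normal] (hK : (Nat.card K).Coprime p) (hR : IsPGroup p R) {x : Y}
    (hxR : x ∈ R) (hxK : x ∈ normalizer (K : Set Y)) : x ∈ centralizer (K : Set Y) := by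
  rw [mem_centralizer_iff]
  intro k hk
  have h1 : x * k * x⁻¹ * k⁻¹ ∈ K := mul_mem ((mem_normalizer_iff.1 hxK k).1 hk) (inv_mem hk)
  have h2 : x * k * x⁻¹ * k⁻¹ ∈ R := by
    have : x * k * x⁻¹ * k⁻¹ = x * (k * x⁻¹ * k⁻¹) := by group
    rw [this]
    exact mul_mem hxR (Normal.conj_mem inferInstance _ (inv_mem hxR) k)
  have h3 : x * k * x⁻¹ * k⁻¹ ∈ K ⊓ R := mem_inf.2 ⟨h1, h2⟩
  rw [inf_eq_bot_of_coprime_of_isPGroup hK hR, mem_bot] at h3
  have h4 : x * k = k * x := by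
    have : x * k = (x * k * x⁻¹ * k⁻¹) * (k * x) := by group
    rw [this, h3, one_mul]
  exact h4.symm

/-- `p` odd, `X` `p`-constrained, `A` a `p`-subgroup containing every element of order `p` of its
centralizer: every `A`-invariant `p'`-subgroup lies in `O_{p'}(X)`. -/
theorem le_pPrimeCore_of_invariant_odd (hp : p ≠ 2) (hX : IsPConstrained p X) (A : Subgroup X)
    (hAp : IsPGroup p A) (hΩ : ∀ x ∈ centralizer (A : Set X), orderOf x = p → x ∈ A)
    (Q : Subgroup X) (hQ : (Nat.card Q).Coprime p) (hAQ : A ≤ normalizer (Q : Set X)) :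
    Q ≤ pPrimeCore p X := by
  rw [isPConstrained_iff_charP] at hX
  apply le_pPrimeCore_of_map_eq_bot
  have hK : (Nat.card (Q.map (qm p X))).Coprime p :=
    Nat.Coprime.coprime_dvd_left (card_map_dvd _ _) hQ
  have hEK : A.map (qm p X) ≤ normalizer ((Q.map (qm p X) : Subgroup (X ⧸ pPrimeCore p X)) :
      Set (X ⧸ pPrimeCore p X)) := (map_mono hAQ).trans (le_normalizer_map _)
  have hRn : ∀ H : Subgroup (X ⧸ pPrimeCore p X),
      H ≤ normalizer (pCore p (X ⧸ pPrimeCore p X) : Set (X ⧸ pPrimeCore p X)) := by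
    intro H
    rw [normalizer_eq_top]
    exact le_top
  apply eq_bot_of_comm_pCore_eq_bot hX hK
  apply gen_AxB hp hK (hAp.map _) hEK _ (Cfsg.Agent.Lib.Helper28.pCore_isPGroup p) (hRn _) (hRn _)
  intro x hxR hxp hxE
  obtain ⟨c, hc, hcp, rfl⟩ := exists_lift_centralizer A hAp hxE (k := 1) (by rwa [pow_one])
  rw [pow_one] at hcp
  by_cases hc1 : c = 1
  · rw [hc1, map_one]; exact one_mem _
  have hcA : c ∈ A := hΩ c hc (orderOf_eq_prime hcp hc1)
  exact mem_centralizer_of_mem_normalizer_of_coprime hK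
    (Cfsg.Agent.Lib.Helper28.pCore_isPGroup p) hxR (hEK (mem_map_of_mem _ hcA))

end Cfsg.Agent.Lib.Helper29
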